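import Mathlib

/-!
# Linear groups transitive on the nonzero vectors with stabilizers `A₄`: basic facts
-/

set_option autoImplicit false

namespace Cfsg.Agent.H310.A4Act

open MulAction Subgroup

/-- the alternating group of degree 4 -/
abbrev A4 : Type := ↥(alternatingGroup (Fin 4))

theorem a4_card : Nat.card A4 = 12 := by
  rw [Nat.card_eq_fintype_card]
  decide +kernel

theorem a4_conj : ∀ x y : A4, x ≠ 1 → x * x = 1 → y ≠ 1 → y * y = 1 → ∃ g : A4, g * x * g⁻¹ = y := by
  decide +kernel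

theorem a4_comm : ∀ x y : A4, x ≠ 1 → x * x = 1 → (y * x = x * y ↔ y * y = 1) := by
  decide +kernel

theorem a4_four : Nat.card {y : A4 // y * y = 1} = 4 := by
  rw [Nat.card_eq_fintype_card]
  decide +kernel

theorem a4_inv : ∃ x : A4, x ≠ 1 ∧ x * x = 1 := by
  decide +kernel

theorem a4_three : ∃ x : A4, x ≠ 1 ∧ x * x * x = 1 := by
  decide +kernel

section transport

variable {C : Type*} [Group C]

theorem conj (e : C ≃* A4) {x y : C} (hx : x ≠ 1) (hxx : x * x = 1) (hy : y ≠ 1) (hyy : y * y = 1) :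
    ∃ g : C, g * x * g⁻¹ = y := by
  obtain ⟨g, hg⟩ := a4_conj (e x) (e y) (by simpa using hx) (by rw [← map_mul, hxx, map_one])
    (by simpa using hy) (by rw [← map_mul, hyy, map_one])
  refine ⟨e.symm g, ?_⟩
  apply e.injective
  rw [map_mul, map_mul, map_inv, e.apply_symm_apply, hg]

theorem comm (e : C ≃* A4) {x : C} (y : C) (hx : x ≠ 1) (hxx : x * x = 1) :
    y * x = x * y ↔ y * y = 1 := by
  have := a4_comm (e x) (e y) (by simpa using hx) (by rw [← map_mul, hxx, map_one])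
  rw [← map_mul, ← map_mul, ← map_mul, e.injective.eq_iff, ← map_one e, e.injective.eq_iff] at this
  exact this

theorem four (e : C ≃* A4) : Nat.card {y : C // y * y = 1} = 4 := by
  rw [← a4_four]
  refine Nat.card_congr (e.toEquiv.subtypeEquiv fun y => ?_)
  change y * y = 1 ↔ e y * e y = 1
  rw [← map_mul, ← map_one e, e.injective.eq_iff]

theorem exists_inv (e : C ≃* A4) : ∃ x : C, x ≠ 1 ∧ x * x = 1 := by
  obtain ⟨x, h1, h2⟩ := a4_inv
  refine ⟨e.symm x, by simpa using h1, ?_⟩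
  rw [← map_mul, h2, map_one]

theorem exists_three (e : C ≃* A4) : ∃ x : C, x ≠ 1 ∧ x * x * x = 1 := by
  obtain ⟨x, h1, h2⟩ := a4_three
  refine ⟨e.symm x, by simpa using h1, ?_⟩
  rw [← map_mul, ← map_mul, h2, map_one]

end transport

section orbit

variable {K : Type*} [Group K] {N : Type*} [MulAction K N]

theorem card_eq (Y : Subgroup K) (X : Set N) (n : N) (h : MulAction.orbit Y n = X) :
    Nat.card Y = X.ncard * Nat.card ↥(Y ⊓ stabilizer K n) := by
  have h1 := (stabilizer Y n).index_mul_card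
  rw [index_stabilizer, h] at h1
  have h2 : Nat.card (stabilizer Y n) = Nat.card ↥(Y ⊓ stabilizer K n) := by
    have h3 : (stabilizer Y n).map Y.subtype = Y ⊓ stabilizer K n := by
      ext x
      constructor
      · rintro ⟨y, hy, rfl⟩
        exact ⟨y.2, hy⟩
      · rintro ⟨hx, hx'⟩
        exact ⟨⟨x, hx⟩, hx', rfl⟩
    rw [← h3]
    exact Nat.card_congr ((stabilizer Y n).equivMapOfInjective _ Y.subtype_injective).toEquiv
  rw [← h1, h2]

end orbit

/-- The situation: `K` acts on the elementary abelian `p`-group `N`, transitively on `N ∖ 1`, with stabilizers `A₄`. -/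
structure Hyp (K N : Type*) [Group K] [CommGroup N] [MulDistribMulAction K N] (p : ℕ) : Prop where
  prime : p.Prime
  pow : ∀ n : N, n ^ p = 1
  nt : ∃ n : N, n ≠ 1
  tr : ∀ m n : N, m ≠ 1 → n ≠ 1 → ∃ k : K, k • m = n
  st : ∀ n : N, n ≠ 1 → Nonempty (stabilizer K n ≃* A4)
  ff : ∀ k : K, (∀ n : N, k • n = n) → k = 1

/-- fixed points -/
def fx {K : Type*} (N : Type*) [Group K] [CommGroup N] [MulDistribMulAction K N] (V : Subgroup K) : Subgroup N where
  carrier := {n | ∀ k ∈ V, k • n = n}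
  one_mem' := fun k _ => smul_one k
  mul_mem' := by
    intro a b ha hb k hk
    rw [smul_mul', ha k hk, hb k hk]
  inv_mem' := by
    intro a ha k hk
    rw [smul_inv', ha k hk]

namespace Hyp

variable {K N : Type*} [Group K] [CommGroup N] [MulDistribMulAction K N] {p : ℕ}

theorem mem_fx {V : Subgroup K} {n : N} : n ∈ fx N V ↔ ∀ k ∈ V, k • n = n := Iff.rfl

theorem mem_fx_zpowers {t : K} {n : N} : n ∈ fx N (zpowers t) ↔ t • n = n := by
  constructor
  · intro h
    exact h t (mem_zpowers t)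
  · intro h k hk
    have : zpowers t ≤ stabilizer K n := (zpowers_le).2 h
    exact this hk

variable [Finite K] [Finite N] (H : Hyp K N p)
include H

theorem stab_card {n : N} (hn : n ≠ 1) : Nat.card (stabilizer K n) = 12 := by
  obtain ⟨e⟩ := H.st n hn
  rw [Nat.card_congr e.toEquiv, a4_card]

theorem ncard_ne (W : Subgroup N) : {n : N | n ∈ W ∧ n ≠ 1}.ncard = Nat.card W - 1 := by
  have h1 : {n : N | n ∈ W ∧ n ≠ 1} = (W : Set N) \ {1} := by
    ext n; simp
  rw [h1, Set.ncard_diff_singleton_of_mem W.one_mem]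
  rfl

theorem card_K : Nat.card K = (Nat.card N - 1) * 12 := by
  obtain ⟨n, hn⟩ := H.nt
  have h1 := card_eq (⊤ : Subgroup K) {m : N | m ∈ (⊤ : Subgroup N) ∧ m ≠ 1} n (by
    ext m
    constructor
    · rintro ⟨k, rfl⟩
      refine ⟨mem_top _, fun h => hn ?_⟩
      have h' : (k : K) • n = 1 := h
      rwa [smul_eq_iff_eq_inv_smul, smul_one] at h'
    · rintro ⟨-, hm⟩
      obtain ⟨k, hk⟩ := H.tr n m hn hm
      exact ⟨⟨k, mem_top k⟩, hk⟩)
  rw [H.ncard_ne, top_inf_eq, H.stab_card hn] at h1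
  rw [← Nat.card_congr (Subgroup.topEquiv : (⊤ : Subgroup K) ≃* K).toEquiv, h1,
    Nat.card_congr (Subgroup.topEquiv : (⊤ : Subgroup N) ≃* N).toEquiv]

/-- involutions with nontrivial fixed points are conjugate; more precisely in the stabilizer of a common vector -/
theorem conj_stab {n : N} (hn : n ≠ 1) {x y : K} (hx : x ≠ 1) (hxx : x * x = 1) (hxn : x • n = n)
    (hy : y ≠ 1) (hyy : y * y = 1) (hyn : y • n = n) : ∃ g : K, g • n = n ∧ g * x * g⁻¹ = y := by
  obtain ⟨e⟩ := H.st n hn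
  obtain ⟨⟨g, hg⟩, h⟩ := conj e (x := ⟨x, hxn⟩) (y := ⟨y, hyn⟩) (fun h => hx (congrArg Subtype.val h))
    (Subtype.ext hxx) (fun h => hy (congrArg Subtype.val h)) (Subtype.ext hyy)
  exact ⟨g, hg, congrArg Subtype.val h⟩

theorem conj_good {x y : K} (hx : x ≠ 1) (hxx : x * x = 1) {m n : N} (hm : m ≠ 1) (hxm : x • m = m)
    (hy : y ≠ 1) (hyy : y * y = 1) (hn : n ≠ 1) (hyn : y • n = n) : ∃ g : K, g * x * g⁻¹ = y ∧ g • m = n := by
  obtain ⟨k, hk⟩ := H.tr m n hm hn
  obtain ⟨c, hc, hc'⟩ := H.conj_stab hn (x := k * x * k⁻¹) (y := y)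
    (fun h => hx (by rwa [mul_inv_eq_one, mul_eq_left] at h))
    (by rw [show k * x * k⁻¹ * (k * x * k⁻¹) = k * (x * x) * k⁻¹ by group, hxx, mul_one, mul_inv_cancel])
    (by rw [mul_smul, mul_smul, ← hk, inv_smul_smul, hxm]) hy hyy hyn
  refine ⟨c * k, ?_, by rw [mul_smul, hk, hc]⟩
  rw [← hc']
  group

theorem comm_stab {n : N} (hn : n ≠ 1) {x y : K} (hx : x ≠ 1) (hxx : x * x = 1) (hxn : x • n = n)
    (hyn : y • n = n) : y * x = x * y ↔ y * y = 1 := by
  obtain ⟨e⟩ := H.st n hn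
  have h := comm e (x := ⟨x, hxn⟩) (⟨y, hyn⟩ : stabilizer K n) (fun h => hx (congrArg Subtype.val h))
    (Subtype.ext hxx)
  rw [Subtype.ext_iff, Subtype.ext_iff] at h
  exact h

/-- the fours group of the stabilizer of `n` -/
theorem card_four {n : N} (hn : n ≠ 1) {t : K} (ht : t ≠ 1) (htt : t * t = 1) (htn : t • n = n) :
    Nat.card ↥(centralizer ({t} : Set K) ⊓ stabilizer K n) = 4 := by
  obtain ⟨e⟩ := H.st n hn
  rw [← four e]
  refine Nat.card_congr
    { toFun := fun y => ⟨⟨y.1, y.2.2⟩, ?_⟩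
      invFun := fun y => ⟨y.1.1, ?_, y.1.2⟩
      left_inv := fun y => rfl
      right_inv := fun y => rfl }
  · apply Subtype.ext
    exact (H.comm_stab hn ht htt htn y.2.2).1 (mem_centralizer_singleton_iff.1 y.2.1)
  · exact mem_centralizer_singleton_iff.2 ((H.comm_stab hn ht htt htn y.1.2).2 (congrArg Subtype.val y.2))

theorem mem_four {n : N} (hn : n ≠ 1) {t : K} (ht : t ≠ 1) (htt : t * t = 1) (htn : t • n = n) {y : K} :
    y ∈ centralizer ({t} : Set K) ⊓ stabilizer K n ↔ y * y = 1 ∧ y • n = n := by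
  constructor
  · rintro ⟨h1, h2⟩
    exact ⟨(H.comm_stab hn ht htt htn h2).1 (mem_centralizer_singleton_iff.1 h1), h2⟩
  · rintro ⟨h1, h2⟩
    exact ⟨mem_centralizer_singleton_iff.2 ((H.comm_stab hn ht htt htn h2).2 h1), h2⟩

/-- the order of the centralizer of an involution with fixed points -/
theorem card_centralizer {n : N} (hn : n ≠ 1) {t : K} (ht : t ≠ 1) (htt : t * t = 1) (htn : t • n = n) :
    Nat.card (centralizer ({t} : Set K)) = (Nat.card (fx N (zpowers t)) - 1) * 4 := by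
  have h1 := card_eq (centralizer ({t} : Set K)) {m : N | m ∈ fx N (zpowers t) ∧ m ≠ 1} n (by
    ext m
    constructor
    · rintro ⟨⟨k, hk⟩, rfl⟩
      change k • n ∈ _
      rw [mem_centralizer_singleton_iff] at hk
      refine ⟨mem_fx_zpowers.2 ?_, fun h => hn ?_⟩
      · rw [← mul_smul, ← hk, mul_smul, htn]
      · rwa [smul_eq_iff_eq_inv_smul, smul_one] at h
    · rintro ⟨hm, hm1⟩
      obtain ⟨g, h2, h3⟩ := H.conj_good ht htt hn htn ht htt hm1 (mem_fx_zpowers.1 hm)
      refine ⟨⟨g, ?_⟩, h3⟩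
      rw [mem_centralizer_singleton_iff]
      exact mul_inv_eq_iff_eq_mul.1 h2)
  rw [H.ncard_ne, H.card_four hn ht htt htn] at h1
  exact h1

/-- there is an involution with a fixed point -/
theorem exists_good : ∃ (t : K) (n : N), t ≠ 1 ∧ t * t = 1 ∧ n ≠ 1 ∧ t • n = n := by
  obtain ⟨n, hn⟩ := H.nt
  obtain ⟨e⟩ := H.st n hn
  obtain ⟨⟨t, htn⟩, h1, h2⟩ := exists_inv e
  exact ⟨t, n, fun h => h1 (Subtype.ext h), congrArg Subtype.val h2, hn, htn⟩

/-- the order of `N` and its subgroups -/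
theorem card_pow (W : Subgroup N) : ∃ d : ℕ, Nat.card W = p ^ d := by
  have hp : Fact p.Prime := ⟨H.prime⟩
  have h1 : IsPGroup p W := by
    intro x
    refine ⟨1, Subtype.ext ?_⟩
    rw [pow_one]
    exact H.pow x
  obtain ⟨k, hk⟩ := IsPGroup.iff_card.1 h1
  exact ⟨k, hk⟩

end Hyp

end Cfsg.Agent.H310.A4Act
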