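import Mathlib
import Cfsg.Agent.Lib.FieldFour

/-!
# Recognition of the affine group `AGL(2,4)`
-/

set_option autoImplicit false

namespace Cfsg.Agent.H310.A4Ident

open Cfsg.Agent.Lib.FieldFour

section Mod

variable {V : Type*} [AddCommGroup V]

/-- the scalar multiplication given by `T` -/
def smulF (T : V → V) : F4 → V → V
  | .o, _ => 0
  | .i, v => v
  | .w, v => T v
  | .v, v => T (T v)

theorem cube_eq (T : V →+ V) (hT : ∀ v, v + T v + T (T v) = 0) (v : V) : T (T (T v)) = v := by
  have h1 := hT v
  have h2 := congrArg T h1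
  rw [map_add, map_add, map_zero] at h2
  have h3 : T (T (T v)) = -(T v + T (T v)) := by
    rw [eq_neg_iff_add_eq_zero, add_comm]; exact h2
  have h4 : v = -(T v + T (T v)) := by
    rw [eq_neg_iff_add_eq_zero, ← add_assoc]; exact h1
  rw [h3, ← h4]

/-- the `F₄`-space given by `T` with `1 + T + T² = 0` -/
@[reducible] def modF (T : V →+ V) (h2 : ∀ v : V, v + v = 0) (hT : ∀ v, v + T v + T (T v) = 0) : Module F4 V where
  smul := smulF T
  one_smul _ := rfl
  mul_smul a b v := by
    have h3 := cube_eq T hT
    cases a <;> cases b <;> first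
      | rfl
      | exact (map_zero T).symm
      | exact (h3 v).symm
      | (show (0 : V) = T (T 0); rw [map_zero, map_zero])
      | (show T v = T (T (T (T v))); rw [h3])
  smul_zero a := by
    cases a
    · rfl
    · rfl
    · exact map_zero T
    · show T (T 0) = 0
      rw [map_zero, map_zero]
  smul_add a v w := by
    cases a
    · exact (add_zero (0 : V)).symm
    · rfl
    · exact map_add T v w
    · show T (T (v + w)) = T (T v) + T (T w)
      rw [map_add, map_add]
  add_smul a b v := by
    have hn : ∀ x y : V, x + y = 0 → x = y := fun x y h => by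
      rw [← h2 y] at h; exact add_right_cancel h
    have e := hT v
    cases a <;> cases b <;> first
      | exact (zero_add _).symm
      | exact (add_zero _).symm
      | exact (h2 _).symm
      | (show T (T v) = v + T v; exact hn _ _ (by rw [← e]; abel))
      | (show T (T v) = T v + v; exact hn _ _ (by rw [← e]; abel))
      | (show T v = v + T (T v); exact hn _ _ (by rw [← e]; abel))
      | (show T v = T (T v) + v; exact hn _ _ (by rw [← e]; abel))
      | (show v = T v + T (T v); exact hn _ _ (by rw [← e]; abel))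
      | (show v = T (T v) + T v; exact hn _ _ (by rw [← e]; abel))
  zero_smul _ := rfl

/-- an additive map commuting with `T` is linear -/
theorem map_smulF (T : V →+ V) (f : V →+ V) (hf : ∀ v, f (T v) = T (f v)) (a : F4) (v : V) :
    f (smulF T a v) = smulF T a (f v) := by
  cases a
  · exact map_zero f
  · rfl
  · exact hf v
  · show f (T (T v)) = T (T (f v))
    rw [hf, hf]

end Mod

section Aff

variable {F : Type*} [Field F] {W : Type*} [AddCommGroup W] [Module F W] {G : Type*} [Group G]

/-- the homomorphism to the affine group given by a linear action and a cocycle -/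
def affHom (L : G →* (W ≃ₗ[F] W)) (τ : G → W) (h : ∀ g h, τ (g * h) = L g (τ h) + τ g) : G →* (W ≃ᵃ[F] W) where
  toFun g := (L g).toAffineEquiv.trans (AffineEquiv.constVAdd F W (τ g))
  map_one' := by
    have h1 := h 1 1
    rw [mul_one, map_one] at h1
    have h3 : (1 : W ≃ₗ[F] W) (τ 1) = τ 1 := rfl
    rw [h3] at h1
    have h2 : τ 1 = 0 := left_eq_add.1 h1
    ext x
    simp [h2]
  map_mul' g k := by
    ext x
    simp only [AffineEquiv.trans_apply, LinearEquiv.coe_toAffineEquiv, AffineEquiv.constVAdd_apply, vadd_eq_add,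
      AffineEquiv.mul_def, map_mul, LinearEquiv.mul_apply, map_add, h]
    abel

theorem affHom_injective (L : G →* (W ≃ₗ[F] W)) (τ : G → W) (h : ∀ g h, τ (g * h) = L g (τ h) + τ g)
    (hi : ∀ g, L g = 1 → τ g = 0 → g = 1) : Function.Injective (affHom L τ h) := by
  rw [injective_iff_map_eq_one]
  intro g hg
  have h0 : τ g = 0 := by
    have h1 := congrArg (fun e : W ≃ᵃ[F] W => e 0) hg
    simpa [affHom] using h1
  refine hi g ?_ h0
  ext x
  have h1 := congrArg (fun e : W ≃ᵃ[F] W => e x) hg
  simpa [affHom, h0] using h1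

theorem card_aff_le [Finite W] : Nat.card (W ≃ᵃ[F] W) ≤ Nat.card (W ≃ₗ[F] W) * Nat.card W := by
  rw [← Nat.card_prod]
  have : Finite (W ≃ₗ[F] W) := Finite.of_injective (fun e => (e : W → W)) (fun a b h => LinearEquiv.ext (congrFun h))
  refine Nat.card_le_card_of_injective (fun e => (e.linear, e 0)) ?_
  intro e e' h
  have h1 : e.linear = e'.linear := congrArg Prod.fst h
  have h2 : e 0 = e' 0 := congrArg Prod.snd h
  ext x
  have h3 := e.map_vadd 0 x
  have h4 := e'.map_vadd 0 x
  rw [vadd_eq_add, add_zero] at h3 h4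
  rw [h3, h4, h1, h2]

theorem card_lin (F : Type*) [Field F] [Fintype F] (hF : Fintype.card F = 4) :
    Nat.card ((Fin 2 → F) ≃ₗ[F] (Fin 2 → F)) = 180 := by
  have h1 : Nat.card (Matrix.GeneralLinearGroup (Fin 2) F) = 180 := by
    rw [Matrix.card_GL_field, Fin.prod_univ_two, hF]
    rfl
  rw [← h1]
  exact Nat.card_congr ((Matrix.GeneralLinearGroup.toLin (n := Fin 2) (R := F)).trans
    (LinearMap.GeneralLinearGroup.generalLinearEquiv F (Fin 2 → F))).symm.toEquiv

end Aff

/-- **Recognition.** -/
theorem exists_equiv {G : Type*} [Group G] [Finite G] (N : Subgroup G) [N.Normal]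
    (hcomm : ∀ x ∈ N, ∀ y ∈ N, x * y = y * x) (hex : ∀ x ∈ N, x * x = 1) (τ : G → G) (hτ : ∀ g, τ g ∈ N)
    (hτm : ∀ g h, τ (g * h) = g * τ h * g⁻¹ * τ g) (hfaith : ∀ g, (∀ x ∈ N, g * x * g⁻¹ = x) → τ g = 1 → g = 1)
    (w : G) (hw : ∀ x ∈ N, x * (w * x * w⁻¹) * (w * (w * x * w⁻¹) * w⁻¹) = 1)
    (hcw : ∀ g, ∀ x ∈ N, g * (w * x * w⁻¹) * g⁻¹ = w * (g * x * g⁻¹) * w⁻¹)
    (hN : Nat.card N = 16) (hG : Nat.card G = 2880) :
    ∃ (F : Type) (_ : Field F) (_ : Fintype F), Fintype.card F = 4 ∧
      Nonempty (G ≃* ((Fin 2 → F) ≃ᵃ[F] (Fin 2 → F))) := by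
  refine ⟨F4, F4.instField, F4.instFintype, F4.card, ?_⟩
  letI : CommGroup N := { (inferInstance : Group N) with mul_comm := fun x y => Subtype.ext (hcomm x x.2 y y.2) }
  -- the additive maps
  let S : G → (Additive N ≃+ Additive N) := fun g => (MulAut.conjNormal g : MulAut N).toAdditive
  have hS : ∀ g (x : N), (((S g (Additive.ofMul x)).toMul : N) : G) = g * x * g⁻¹ := fun g x => rfl
  let T : Additive N →+ Additive N := (S w).toAddMonoidHom
  have h2 : ∀ v : Additive N, v + v = 0 := fun v => by
    obtain ⟨x, hx⟩ := v.toMul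
    exact Subtype.ext (hex _ (v.toMul).2)
  have hT : ∀ v : Additive N, v + T v + T (T v) = 0 := fun v => Subtype.ext (hw _ (v.toMul).2)
  letI : Module F4 (Additive N) := modF T h2 hT
  have hlin : ∀ (g : G) (a : F4) (v : Additive N), S g (a • v) = a • S g v := by
    intro g a v
    refine map_smulF T (S g).toAddMonoidHom (fun v => ?_) a v
    exact Subtype.ext (hcw g _ (v.toMul).2)
  let L : G → (Additive N ≃ₗ[F4] Additive N) := fun g => { S g with map_smul' := hlin g }
  have hfin : Module.finrank F4 (Additive N) = 2 := by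
    have h3 := Module.natCard_eq_pow_finrank (K := F4) (V := Additive N)
    have h4 : Nat.card (Additive N) = 16 := hN
    rw [h4, F4.natCard] at h3
    have h5 : 4 ^ 2 = 4 ^ Module.finrank F4 (Additive N) := by rw [← h3]; norm_num
    exact (Nat.pow_right_injective (by norm_num) h5).symm
  have hfind : Module.finrank F4 (Additive N) = Module.finrank F4 (Fin 2 → F4) := by
    rw [hfin, Module.finrank_fin_fun]
  let e : Additive N ≃ₗ[F4] (Fin 2 → F4) := LinearEquiv.ofFinrankEq _ _ hfind
  let L' : G →* ((Fin 2 → F4) ≃ₗ[F4] (Fin 2 → F4)) :=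
    { toFun := fun g => e.symm.trans ((L g).trans e)
      map_one' := by
        ext1 x
        have : L 1 (e.symm x) = e.symm x := by
          apply Subtype.ext
          change (1 : G) * _ * (1 : G)⁻¹ = _
          rw [one_mul, inv_one, mul_one]
          rfl
        simp [this]
      map_mul' := by
        intro g h
        ext1 x
        have : L (g * h) (e.symm x) = L g (L h (e.symm x)) := by
          apply Subtype.ext
          change (g * h) * _ * (g * h)⁻¹ = g * (h * _ * h⁻¹) * g⁻¹
          group
        simp [this] }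
  have hL' : ∀ g x, L' g x = e (L g (e.symm x)) := fun g x => rfl
  let τ' : G → (Fin 2 → F4) := fun g => e (Additive.ofMul ⟨τ g, hτ g⟩)
  have hτ' : ∀ g h, τ' (g * h) = L' g (τ' h) + τ' g := by
    intro g h
    rw [hL']
    change e _ = e (L g (e.symm (e (Additive.ofMul ⟨τ h, hτ h⟩)))) + e _
    rw [e.symm_apply_apply, ← map_add]
    congr 1
    exact Subtype.ext (hτm g h)
  have hinj : Function.Injective (affHom L' τ' hτ') := by
    apply affHom_injective
    intro g h3 h4
    refine hfaith g ?_ ?_
    · intro x hx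
      have h5 : L' g (e (Additive.ofMul ⟨x, hx⟩)) = e (Additive.ofMul ⟨x, hx⟩) := by rw [h3]; rfl
      rw [hL', e.symm_apply_apply] at h5
      have h6 := e.injective h5
      exact congrArg (fun y : Additive N => ((y.toMul : N) : G)) h6
    · have h5 : (Additive.ofMul (⟨τ g, hτ g⟩ : N)) = 0 := by
        apply e.injective
        rw [map_zero]
        exact h4
      exact congrArg (fun y : Additive N => ((y.toMul : N) : G)) h5
  have hcard : Nat.card ((Fin 2 → F4) ≃ᵃ[F4] (Fin 2 → F4)) ≤ 2880 := by
    refine card_aff_le.trans ?_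
    rw [card_lin F4 F4.card, Nat.card_fun, F4.natCard, Nat.card_eq_fintype_card, Fintype.card_fin]
    norm_num
  have hfinA : Finite ((Fin 2 → F4) ≃ᵃ[F4] (Fin 2 → F4)) :=
    Finite.of_injective (fun e => (e : (Fin 2 → F4) → (Fin 2 → F4))) (fun a b h => AffineEquiv.ext (congrFun h))
  have hbij : Function.Bijective (affHom L' τ' hτ') := by
    refine (Nat.bijective_iff_injective_and_card _).2 ⟨hinj, le_antisymm ?_ (by rw [hG]; exact hcard)⟩
    exact Nat.card_le_card_of_injective _ hinj
  exact ⟨MulEquiv.ofBijective _ hbij⟩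

end Cfsg.Agent.H310.A4Ident
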