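import Cfsg.Agent.H310.A4TwoCent
import Cfsg.Agent.H310.A4Ident

/-!
# 2-transitive groups with two-point stabilizer `A₄`: the affine case
-/

set_option autoImplicit false

namespace Cfsg.Agent.H310.A4Affine

open MulAction Subgroup Cfsg.Agent.H310.A4Act

universe u v

theorem affine_case {G : Type u} [Group G] [Finite G] {Ω : Type v} [Finite Ω] [MulAction G Ω] [FaithfulSMul G Ω]
    (h2 : ∀ a b c d : Ω, a ≠ b → c ≠ d → ∃ g : G, g • a = c ∧ g • b = d) (a b : Ω) (hab : a ≠ b)
    (e : ↥(stabilizer G a ⊓ stabilizer G b) ≃* ↥(alternatingGroup (Fin 4)))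
    (N : Subgroup G) (hNn : N.Normal) (hNc : ∀ x ∈ N, ∀ y ∈ N, x * y = y * x) (p : ℕ) (hp : p.Prime)
    (hNp : ∀ n ∈ N, n ^ p = 1) (htr : ∀ x y : Ω, ∃ n ∈ N, n • x = y) (hreg : ∀ x : Ω, ∀ n ∈ N, n • x = x → n = 1) :
    (Nat.card Ω = 16 ∧ ∃ (F : Type) (_ : Field F) (_ : Fintype F), Fintype.card F = 4 ∧
        Nonempty (G ≃* ((Fin 2 → F) ≃ᵃ[F] (Fin 2 → F)))) ∨
      (∃ J : G, orderOf J = 2 ∧ Subgroup.centralizer ({J} : Set G) ⊔ Cfsg.oddCore G = ⊤) := by
  letI : CommGroup N := { (inferInstance : Group N) with mul_comm := fun x y => Subtype.ext (hNc x x.2 y y.2) }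
  letI : MulDistribMulAction (stabilizer G a) N :=
    MulDistribMulAction.compHom N ((MulAut.conjNormal : G →* MulAut N).comp (stabilizer G a).subtype)
  have hsm : ∀ (k : stabilizer G a) (n : N), ((k • n : N) : G) = k * n * (k : G)⁻¹ := fun k n => rfl
  have hsmul : ∀ (k : stabilizer G a) (n : N), ((k • n : N) : G) • a = (k : G) • (n : G) • a := by
    intro k n
    have hk : (k : G)⁻¹ • a = a := by
      rw [inv_smul_eq_iff]
      exact (k.2 : (k : G) • a = a).symm
    rw [hsm, mul_smul, mul_smul, hk]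
  have hinj : ∀ m n : N, (m : G) • a = (n : G) • a → m = n := by
    intro m n h
    have h1 : (n : G)⁻¹ * m = 1 := by
      apply hreg a _ (mul_mem (inv_mem n.2) m.2)
      rw [mul_smul, h, inv_smul_smul]
    exact Subtype.ext (inv_mul_eq_one.1 h1).symm
  have hne : ∀ n : N, n ≠ 1 → (n : G) • a ≠ a := fun n hn h => hn (Subtype.ext (hreg a n n.2 h))
  have H : Hyp (stabilizer G a) N p := by
    refine ⟨hp, fun n => Subtype.ext (hNp n n.2), ?_, ?_, ?_, ?_⟩
    · obtain ⟨n, hn, h⟩ := htr a b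
      refine ⟨⟨n, hn⟩, fun h1 => hab ?_⟩
      have h3 : n = 1 := congrArg Subtype.val h1
      rw [h3, one_smul] at h
      exact h
    · intro m n hm hn
      obtain ⟨g, hg, hg'⟩ := h2 a ((m : G) • a) a ((n : G) • a) (hne m hm).symm (hne n hn).symm
      refine ⟨⟨g, hg⟩, hinj _ _ ?_⟩
      rw [hsmul]
      exact hg'
    · intro n hn
      obtain ⟨g, hg, hg'⟩ := h2 a ((n : G) • a) a b (hne n hn).symm hab
      have e1 : stabilizer (stabilizer G a) n ≃* ↥(stabilizer G a ⊓ stabilizer G b) :=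
        { toFun := fun k => ⟨g * k * g⁻¹, by
              rw [Subgroup.mem_inf, mem_stabilizer_iff, mem_stabilizer_iff]
              have hk : (((k : stabilizer G a) : G)) • a = a := k.1.2
              have hk' : (((k : stabilizer G a) : G)) • (n : G) • a = (n : G) • a := by
                rw [← hsmul]
                have : (k : stabilizer G a) • n = n := k.2
                rw [this]
              constructor
              · rw [mul_smul, mul_smul, inv_smul_eq_iff.2 hg.symm, hk, hg]
              · rw [mul_smul, mul_smul, inv_smul_eq_iff.2 hg'.symm, hk', hg']⟩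
          invFun := fun k => ⟨⟨g⁻¹ * k * g, by
              have hk : (k : G) • a = a := k.2.1
              rw [mem_stabilizer_iff, mul_smul, mul_smul, hg, hk, inv_smul_eq_iff, hg]⟩, by
              have hk : (k : G) • b = b := k.2.2
              apply hinj
              rw [hsmul]
              change (g⁻¹ * (k : G) * g) • (n : G) • a = (n : G) • a
              rw [mul_smul, mul_smul, hg', hk, inv_smul_eq_iff, hg']⟩
          left_inv := fun k => Subtype.ext (Subtype.ext (by
            change g⁻¹ * (g * _ * g⁻¹) * g = _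
            group))
          right_inv := fun k => Subtype.ext (by
            change g * (g⁻¹ * _ * g) * g⁻¹ = _
            group)
          map_mul' := fun k l => Subtype.ext (by
            change g * (_ * _) * g⁻¹ = (g * _ * g⁻¹) * (g * _ * g⁻¹)
            group) }
      exact ⟨e1.trans e⟩
    · intro k hk
      apply Subtype.ext
      apply FaithfulSMul.eq_of_smul_eq_smul (α := Ω)
      intro x
      obtain ⟨n, hn, rfl⟩ := htr a x
      have h1 := hsmul k ⟨n, hn⟩
      rw [hk] at h1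
      change (k : G) • n • a = (1 : G) • n • a
      rw [one_smul]
      exact h1.symm
  -- the point of a group element
  have hτ0 : ∀ g : G, ∃ n ∈ N, n • a = g • a := fun g => htr a (g • a)
  choose τ hτ hτa using hτ0
  have hk : ∀ g : G, (τ g)⁻¹ * g ∈ stabilizer G a := by
    intro g
    rw [mem_stabilizer_iff, mul_smul, ← hτa, inv_smul_smul]
  by_cases hp2 : p = 2
  · left
    subst hp2
    obtain ⟨hN, hK, w, hw1, hw3, hwc, hwx⟩ := H.exists_central_three
    have hbij : Function.Bijective (fun n : N => (n : G) • a) :=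
      ⟨fun m n h => hinj m n h, fun x => by
        obtain ⟨n, hn, h⟩ := htr a x
        exact ⟨⟨n, hn⟩, h⟩⟩
    have hΩ : Nat.card Ω = 16 := by rw [← hN]; exact (Nat.card_congr (Equiv.ofBijective _ hbij)).symm
    have hG : Nat.card G = 2880 := by
      have h3 := (stabilizer G a).card_mul_index
      have h4 : (stabilizer G a).index = 16 := by
        rw [index_stabilizer, ← hΩ]
        have : orbit G a = Set.univ := by
          rw [Set.eq_univ_iff_forall]
          intro x
          obtain ⟨n, -, h⟩ := htr a x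
          exact ⟨n, h⟩
        rw [this, Set.ncard_univ]
      rw [hK, h4] at h3
      omega
    refine ⟨hΩ, A4Ident.exists_equiv N hNc (fun x hx => by rw [← pow_two]; exact hNp x hx) τ hτ ?_ ?_ w ?_ ?_ hN hG⟩
    · intro g h
      have h3 : (⟨τ (g * h), hτ _⟩ : N) = ⟨g * τ h * g⁻¹ * τ g, mul_mem (hNn.conj_mem _ (hτ h) g) (hτ g)⟩ := by
        apply hinj
        change τ (g * h) • a = (g * τ h * g⁻¹ * τ g) • a
        rw [hτa, mul_smul (g * τ h * g⁻¹), hτa, mul_smul (g * τ h), inv_smul_smul, mul_smul, mul_smul, hτa]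
      exact congrArg Subtype.val h3
    · intro g hg hg1
      have hga : g • a = a := by rw [← hτa, hg1, one_smul]
      have h3 : (⟨g, hga⟩ : stabilizer G a) = 1 := by
        apply H.ff
        intro n
        exact Subtype.ext (hg n n.2)
      exact congrArg Subtype.val h3
    · intro x hx
      exact congrArg Subtype.val (hwx ⟨x, hx⟩)
    · intro g x hx
      have h3 : ∀ y ∈ N, g * y * g⁻¹ = ((τ g)⁻¹ * g) * y * ((τ g)⁻¹ * g)⁻¹ := by
        intro y hy
        have h4 := hNc _ (hNn.conj_mem y hy g) (τ g) (hτ g)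
        calc g * y * g⁻¹ = (τ g)⁻¹ * (τ g * (g * y * g⁻¹)) := by group
          _ = (τ g)⁻¹ * (g * y * g⁻¹ * τ g) := by rw [h4]
          _ = _ := by group
      have h5 := congrArg (fun z : stabilizer G a => (z : G)) (hwc ⟨_, hk g⟩)
      have h6 : ((τ g)⁻¹ * g) * w = w * ((τ g)⁻¹ * g) := h5
      rw [h3 _ (hNn.conj_mem x hx w), h3 x hx]
      calc ((τ g)⁻¹ * g) * (w * x * (w : G)⁻¹) * ((τ g)⁻¹ * g)⁻¹ =
            (((τ g)⁻¹ * g) * w) * x * (((τ g)⁻¹ * g) * w)⁻¹ := by group
        _ = (w * ((τ g)⁻¹ * g)) * x * (w * ((τ g)⁻¹ * g))⁻¹ := by rw [h6]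
        _ = _ := by group
  · right
    obtain ⟨J, hJ1, hJJ, hJ⟩ := H.odd_case hp2
    refine ⟨J, ?_, ?_⟩
    · exact orderOf_eq_prime (by rw [pow_two]; exact congrArg Subtype.val hJJ) (fun h => hJ1 (Subtype.ext h))
    · rw [eq_top_iff]
      intro g _
      have hodd : (Nat.card N).Coprime 2 := by
        obtain ⟨d, hd⟩ := H.card_pow (⊤ : Subgroup N)
        rw [Nat.card_congr (Subgroup.topEquiv : (⊤ : Subgroup N) ≃* N).toEquiv] at hd
        rw [hd]
        exact Nat.Coprime.pow_left d ((Nat.coprime_primes hp Nat.prime_two).2 hp2)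
      have hNO : N ≤ Cfsg.oddCore G := Cfsg.Agent.Lib.Cores.le_pPrimeCore hNn hodd
      have hkJ : (⟨_, hk g⟩ : stabilizer G a) * J * (⟨_, hk g⟩ : stabilizer G a)⁻¹ * J = 1 := by
        apply H.ff
        intro n
        rw [mul_smul, mul_smul, mul_smul, hJ n, hJ]
        apply Subtype.ext
        have h9 : (((⟨_, hk g⟩ : stabilizer G a) • ((⟨_, hk g⟩ : stabilizer G a)⁻¹ • n⁻¹)⁻¹ : N) : G) =
            ((τ g)⁻¹ * g) * (((τ g)⁻¹ * g)⁻¹ * (n : G)⁻¹ * (((τ g)⁻¹ * g)⁻¹)⁻¹)⁻¹ * ((τ g)⁻¹ * g)⁻¹ := rfl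
        rw [h9]
        group
      have h4 : (τ g)⁻¹ * g ∈ centralizer ({(J : G)} : Set G) := by
        rw [mem_centralizer_singleton_iff]
        have h5 : ((τ g)⁻¹ * g) * J * ((τ g)⁻¹ * g)⁻¹ * J = 1 := congrArg Subtype.val hkJ
        have h6 : (J : G) * J = 1 := congrArg Subtype.val hJJ
        have h7 : ((τ g)⁻¹ * g) * J * ((τ g)⁻¹ * g)⁻¹ = J := by
          rw [mul_eq_one_iff_eq_inv] at h5
          rw [h5, inv_eq_iff_mul_eq_one, h6]
        exact mul_inv_eq_iff_eq_mul.1 h7
      have h5 : g = τ g * ((τ g)⁻¹ * g) := by group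
      rw [h5]
      exact mul_mem (mem_sup_right (hNO (hτ g))) (mem_sup_left h4)

end Cfsg.Agent.H310.A4Affine
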