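import Cfsg.Agent.H310.A4Act
import Cfsg.Agent.HKS.RigFour

/-!
# Groups transitive on the nonzero vectors with stabilizers `A₄`: fours groups, odd characteristic
-/

set_option autoImplicit false

namespace Cfsg.Agent.H310.A4Act

open MulAction Subgroup

/-- an involution whose centralizer has odd index -/
theorem exists_central {K : Type*} [Group K] [Finite K] (h2 : 2 ∣ Nat.card K) :
    ∃ z : K, z ≠ 1 ∧ z * z = 1 ∧ ¬ 2 ∣ (centralizer ({z} : Set K)).index := by
  have : Fact (Nat.Prime 2) := ⟨Nat.prime_two⟩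
  obtain ⟨P⟩ : Nonempty (Sylow 2 K) := inferInstance
  have hnt : Nontrivial (P : Subgroup K) := by
    rw [Subgroup.nontrivial_iff_ne_bot]
    intro h
    have h1 := P.card_eq_multiplicity
    rw [h, Subgroup.card_bot] at h1
    have h3 : 1 ≤ (Nat.card K).factorization 2 :=
      (Nat.prime_two.dvd_iff_one_le_factorization Nat.card_pos.ne').1 h2
    have h4 : 2 ^ 1 ≤ 2 ^ (Nat.card K).factorization 2 := Nat.pow_le_pow_right (by norm_num) h3
    omega
  have hc : Nontrivial (Subgroup.center (P : Subgroup K)) := P.2.center_nontrivial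
  have h5 : 2 ∣ Nat.card (Subgroup.center (P : Subgroup K)) := by
    have h6 : IsPGroup 2 (Subgroup.center (P : Subgroup K)) := P.2.to_subgroup _
    obtain ⟨n, hn0, hn⟩ := (IsPGroup.nontrivial_iff_card h6).1 hc
    rw [hn]
    exact dvd_pow_self 2 (by omega)
  obtain ⟨z, hz⟩ := exists_prime_orderOf_dvd_card' 2 h5
  have hz1 : z ≠ 1 := by
    intro h
    rw [h, orderOf_one] at hz
    omega
  have hz2 : z * z = 1 := by
    have h6 := pow_orderOf_eq_one z
    rwa [hz, pow_two] at h6
  refine ⟨z.1.1, fun h => hz1 (Subtype.ext (Subtype.ext h)), congrArg (fun x => x.1.1) hz2, ?_⟩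
  intro h7
  have h8 : (P : Subgroup K) ≤ centralizer ({(z.1.1 : K)} : Set K) := by
    intro x hx
    rw [mem_centralizer_singleton_iff]
    exact congrArg Subtype.val ((Subgroup.mem_center_iff.1 z.2) ⟨x, hx⟩)
  have h9 := Subgroup.index_dvd_of_le h8
  exact P.not_dvd_index (h7.trans h9)

/-- pure arithmetic for odd `p` -/
theorem arith_odd {p c d e m : ℕ} (hp : 3 ≤ p) (hodd : p % 2 = 1) (hm : ¬ 2 ∣ m)
    (h1 : (p ^ d - 1) * 12 = (p ^ e - 1) * 4 * m) (h2 : d + 2 * c = 3 * e) (hc : 1 ≤ c) (hce : c ≤ e)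
    (hed : e < d) : False := by
  have he : 1 ≤ e := hc.trans hce
  have h3 : 3 * (p ^ d - 1) = (p ^ e - 1) * m := by
    have : 4 * (3 * (p ^ d - 1)) = 4 * ((p ^ e - 1) * m) := by
      calc 4 * (3 * (p ^ d - 1)) = (p ^ d - 1) * 12 := by ring
        _ = (p ^ e - 1) * 4 * m := h1
        _ = _ := by ring
    omega
  have h4 : (p ^ e - 1) ∣ 3 * (p ^ Nat.gcd d e - 1) := by
    rw [← Nat.pow_sub_one_gcd_pow_sub_one, ← Nat.gcd_mul_left]
    exact Nat.dvd_gcd (Dvd.intro _ h3.symm) (Dvd.intro_left _ rfl)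
  have h5 : Nat.gcd d e = e := by
    have h6 : Nat.gcd d e ≤ e := Nat.le_of_dvd (by omega) (Nat.gcd_dvd_right d e)
    by_contra hne
    have h7 : Nat.gcd d e + 1 ≤ e := by omega
    have hg : 1 ≤ Nat.gcd d e := Nat.gcd_pos_of_pos_right d (by omega)
    have h8 : p ^ (Nat.gcd d e + 1) ≤ p ^ e := Nat.pow_le_pow_right (by omega) h7
    have h9 : 3 ≤ p ^ Nat.gcd d e := by
      calc 3 ≤ p := hp
        _ = p ^ 1 := (pow_one p).symm
        _ ≤ _ := Nat.pow_le_pow_right (by omega) hg
    have h10 := Nat.le_of_dvd (by omega) h4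
    rw [pow_succ] at h8
    have h11 : p ^ Nat.gcd d e * 3 ≤ p ^ Nat.gcd d e * p := Nat.mul_le_mul_left _ hp
    omega
  have h6 : e ∣ d := by rw [← h5]; exact Nat.gcd_dvd_left d e
  obtain ⟨k, hk⟩ := h6
  have h7 : k = 2 := by
    subst hk
    have h8 : k < 3 := by
      by_contra h9
      push Not at h9
      have : e * 3 ≤ e * k := Nat.mul_le_mul_left _ h9
      omega
    have h9 : 1 < k := by
      by_contra h10
      push Not at h10
      have : e * k ≤ e * 1 := Nat.mul_le_mul_left _ h10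
      omega
    omega
  subst h7
  subst hk
  apply hm
  have h8 : p ^ (e * 2) - 1 = (p ^ e - 1) * (p ^ e + 1) := by
    rw [pow_mul, mul_comm, ← Nat.sq_sub_sq, one_pow]
  have h9 : 2 ≤ p ^ e := by
    calc 2 ≤ p := by omega
      _ = p ^ 1 := (pow_one p).symm
      _ ≤ _ := Nat.pow_le_pow_right (by omega) he
  rw [h8] at h3
  have h10 : (p ^ e - 1) * (3 * (p ^ e + 1)) = (p ^ e - 1) * m := by
    rw [← h3]; ring
  have h11 : 3 * (p ^ e + 1) = m := Nat.eq_of_mul_eq_mul_left (by omega) h10
  rw [← h11]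
  have h12 : p ^ e % 2 = 1 := by
    rw [Nat.pow_mod, hodd, one_pow]
    rfl
  omega

/-- two commuting involutions fixing a common nontrivial vector -/
structure Fours {K N : Type*} [Group K] [CommGroup N] [MulDistribMulAction K N] (t s : K) (n : N) : Prop where
  n1 : n ≠ 1
  t1 : t ≠ 1
  tt : t * t = 1
  tn : t • n = n
  s1 : s ≠ 1
  ss : s * s = 1
  sn : s • n = n
  st : s ≠ t
  comm : s * t = t * s

namespace Hyp

variable {K N : Type*} [Group K] [CommGroup N] [MulDistribMulAction K N] {p : ℕ}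
variable [Finite K] [Finite N] (H : Hyp K N p)
include H

theorem exists_fours {n : N} (hn : n ≠ 1) {t : K} (ht : t ≠ 1) (htt : t * t = 1) (htn : t • n = n) :
    ∃ s : K, Fours t s n := by
  have h4 := H.card_four hn ht htt htn
  have : ∃ s ∈ centralizer ({t} : Set K) ⊓ stabilizer K n, s ≠ 1 ∧ s ≠ t := by
    by_contra hcon
    push Not at hcon
    have h5 : ((centralizer ({t} : Set K) ⊓ stabilizer K n : Subgroup K) : Set K) ⊆ {1, t} := by
      intro x hx
      by_cases hx1 : x = 1
      · exact Or.inl hx1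
      · exact Or.inr (hcon x hx hx1)
    have h6 := Set.ncard_le_ncard h5
    have h7 : ((centralizer ({t} : Set K) ⊓ stabilizer K n : Subgroup K) : Set K).ncard = 4 := h4
    rw [h7] at h6
    have h8 : ({1, t} : Set K).ncard ≤ 2 := by
      refine (Set.ncard_insert_le _ _).trans ?_
      rw [Set.ncard_singleton]
    omega
  obtain ⟨s, hs, hs1, hst⟩ := this
  have h5 := (H.mem_four hn ht htt htn).1 hs
  exact ⟨s, hn, ht, htt, htn, hs1, h5.1, h5.2, hst, mem_centralizer_singleton_iff.1 hs.1⟩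

theorem mem_V {t s : K} {n : N} (F : Fours t s n) {y : K} :
    y ∈ centralizer ({t} : Set K) ⊓ stabilizer K n ↔ y = 1 ∨ y = t ∨ y = s ∨ y = t * s := by
  have h4 := H.card_four F.n1 F.t1 F.tt F.tn
  have hts1 : t * s ≠ 1 := by
    intro h
    apply F.st
    have h5 : t * (t * s) = t * 1 := by rw [h]
    rwa [← mul_assoc, F.tt, one_mul, mul_one] at h5
  have htst : t * s ≠ t := by
    intro h
    exact F.s1 (mul_eq_left.1 h)
  have htss : t * s ≠ s := by
    intro h
    exact F.t1 (mul_eq_right.1 h)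
  have hsub : ({1, t, s, t * s} : Set K) ⊆ ((centralizer ({t} : Set K) ⊓ stabilizer K n : Subgroup K) : Set K) := by
    have ht : t ∈ centralizer ({t} : Set K) ⊓ stabilizer K n :=
      (H.mem_four F.n1 F.t1 F.tt F.tn).2 ⟨F.tt, F.tn⟩
    have hs : s ∈ centralizer ({t} : Set K) ⊓ stabilizer K n :=
      (H.mem_four F.n1 F.t1 F.tt F.tn).2 ⟨F.ss, F.sn⟩
    rintro x (rfl | rfl | rfl | rfl)
    · exact one_mem _
    · exact ht
    · exact hs
    · exact mul_mem ht hs
  have hcard : ({1, t, s, t * s} : Set K).ncard = 4 := by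
    rw [Set.ncard_insert_of_notMem, Set.ncard_insert_of_notMem, Set.ncard_insert_of_notMem,
      Set.ncard_singleton]
    · intro h
      exact htss (Set.mem_singleton_iff.1 h).symm
    · rintro (h | h)
      · exact F.st h.symm
      · exact htst h.symm
    · rintro (h | h | h)
      · exact F.t1 h.symm
      · exact F.s1 h.symm
      · exact hts1 h.symm
  have heq := Set.eq_of_subset_of_ncard_le hsub (by
    rw [hcard]
    exact h4.le)
  change y ∈ ((centralizer ({t} : Set K) ⊓ stabilizer K n : Subgroup K) : Set K) ↔ _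
  rw [← heq]
  simp

theorem card_fx {t : K} : Nat.card (fx N (zpowers t)) = Nat.card {x : N // t • x = x} :=
  Nat.card_congr (Equiv.subtypeEquivRight fun _ => mem_fx_zpowers)

theorem card_fx_conj (g t : K) : Nat.card {x : N // (g * t * g⁻¹) • x = x} = Nat.card {x : N // t • x = x} := by
  symm
  refine Nat.card_congr ((MulAction.toPerm g).subtypeEquiv fun x => ?_)
  rw [MulAction.toPerm_apply, mul_smul, inv_smul_smul, mul_smul, smul_left_cancel_iff]

theorem card_fx_good {x y : K} (hx : x ≠ 1) (hxx : x * x = 1) {m n : N} (hm : m ≠ 1) (hxm : x • m = m)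
    (hy : y ≠ 1) (hyy : y * y = 1) (hn : n ≠ 1) (hyn : y • n = n) :
    Nat.card {z : N // y • z = z} = Nat.card {z : N // x • z = z} := by
  obtain ⟨g, hg, -⟩ := H.conj_good hx hxx hm hxm hy hyy hn hyn
  rw [← hg]
  exact H.card_fx_conj g x

/-- **the fixed point formula** (for groups of odd order) -/
theorem fixed_formula (hp : p ≠ 2) {t s : K} {n : N} (F : Fours t s n) :
    Nat.card N * Nat.card {x : N // t • x = x ∧ s • x = x} ^ 2 = Nat.card {x : N // t • x = x} ^ 3 := by
  have hodd : Odd (Nat.card N) := by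
    obtain ⟨d, hd⟩ := H.card_pow (⊤ : Subgroup N)
    rw [Nat.card_congr (Subgroup.topEquiv : (⊤ : Subgroup N) ≃* N).toEquiv] at hd
    rw [hd]
    exact (H.prime.odd_of_ne_two hp).pow
  have h := Cfsg.Agent.HKS.Rig.card_four (P := N) hodd (α := MulDistribMulAction.toMulAut K N t)
    (β := MulDistribMulAction.toMulAut K N s) (by rw [← map_mul, F.tt, map_one])
    (by rw [← map_mul, F.ss, map_one]) (by rw [← map_mul, ← map_mul, F.comm])
  rw [← map_mul] at h
  have h1 : Nat.card {x : N // s • x = x} = Nat.card {x : N // t • x = x} :=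
    H.card_fx_good F.t1 F.tt F.n1 F.tn F.s1 F.ss F.n1 F.sn
  have h2 : Nat.card {x : N // (t * s) • x = x} = Nat.card {x : N // t • x = x} := by
    refine H.card_fx_good F.t1 F.tt F.n1 F.tn ?_ ?_ F.n1 ?_
    · intro h
      apply F.st
      have h5 : t * (t * s) = t * 1 := by rw [h]
      rwa [← mul_assoc, F.tt, one_mul, mul_one] at h5
    · calc t * s * (t * s) = t * (s * t) * s := by group
        _ = (t * t) * (s * s) := by rw [F.comm]; group
        _ = 1 := by rw [F.tt, F.ss, one_mul]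
    · rw [mul_smul, F.sn, F.tn]
  have h3 : Nat.card N * Nat.card {x : N // t • x = x ∧ s • x = x} ^ 2 =
      Nat.card {x : N // t • x = x} * Nat.card {x : N // s • x = x} * Nat.card {x : N // (t * s) • x = x} := h
  rw [h3, h1, h2]
  ring

theorem card_centralizer' {n : N} (hn : n ≠ 1) {t : K} (ht : t ≠ 1) (htt : t * t = 1) (htn : t • n = n) :
    Nat.card (centralizer ({t} : Set K)) = (Nat.card {x : N // t • x = x} - 1) * 4 := by
  rw [H.card_centralizer hn ht htt htn, H.card_fx]

theorem card_sub_pow (P : N → Prop) (W : Subgroup N) (h : ∀ x, x ∈ W ↔ P x) : ∃ e, Nat.card {x : N // P x} = p ^ e := by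
  obtain ⟨e, he⟩ := H.card_pow W
  refine ⟨e, ?_⟩
  rw [← he]
  exact (Nat.card_congr (Equiv.subtypeEquivRight h)).symm

/-- **Odd characteristic.** -/
theorem odd_case (hp : p ≠ 2) : ∃ J : K, J ≠ 1 ∧ J * J = 1 ∧ ∀ n : N, J • n = n⁻¹ := by
  by_contra hno
  have good : ∀ x : K, x ≠ 1 → x * x = 1 → ∃ n : N, n ≠ 1 ∧ x • n = n := by
    intro x hx hxx
    by_contra hcon
    push Not at hcon
    refine hno ⟨x, hx, hxx, fun n => ?_⟩
    by_contra h1
    refine hcon (n * x • n) (fun h2 => h1 (eq_inv_of_mul_eq_one_right h2)) ?_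
    rw [smul_mul', ← mul_smul, hxx, one_smul, mul_comm]
  obtain ⟨t, n, ht, htt, hn, htn⟩ := H.exists_good
  obtain ⟨s, F⟩ := H.exists_fours hn ht htt htn
  obtain ⟨d, hd⟩ := H.card_sub_pow (fun _ => True) ⊤ (by simp)
  have hd' : Nat.card N = p ^ d := by
    rw [← hd]
    exact (Nat.card_congr (Equiv.subtypeUnivEquiv fun x => trivial)).symm
  obtain ⟨e, he⟩ := H.card_sub_pow (fun x => t • x = x) (fx N (zpowers t)) (fun _ => mem_fx_zpowers)
  obtain ⟨c, hc⟩ := H.card_sub_pow (fun x => t • x = x ∧ s • x = x) (fx N (zpowers t) ⊓ fx N (zpowers s))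
    (fun x => by rw [Subgroup.mem_inf, mem_fx_zpowers, mem_fx_zpowers])
  have hp1 : 1 < p := H.prime.one_lt
  have hf := H.fixed_formula hp F
  rw [hd', hc, he, ← pow_mul, ← pow_mul, ← pow_add] at hf
  have h1 := Nat.pow_right_injective hp1 hf
  have hc1 : 1 ≤ c := by
    by_contra h2
    have : c = 0 := by omega
    rw [this, pow_zero, Nat.card_eq_one_iff_unique] at hc
    obtain ⟨hc, -⟩ := hc
    have := hc.elim ⟨n, F.tn, F.sn⟩ ⟨1, smul_one t, smul_one s⟩
    exact hn (congrArg Subtype.val this)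
  have hce : p ^ c ≤ p ^ e := by
    rw [← hc, ← he]
    exact Nat.card_le_card_of_injective (fun x => (⟨x.1, x.2.1⟩ : {x : N // t • x = x}))
      (fun x y h => Subtype.ext (by have h2 := congrArg Subtype.val h; exact h2))
  have hce' := (Nat.pow_le_pow_iff_right hp1).1 hce
  have hed : e < d := by
    rcases lt_or_ge e d with h | h
    · exact h
    exfalso
    have h3 : Nat.card N ≤ Nat.card {x : N // t • x = x} := by
      rw [hd', he]
      exact Nat.pow_le_pow_right (by omega) h
    have h4 : fx N (zpowers t) = ⊤ := by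
      apply Subgroup.eq_top_of_le_card
      rw [H.card_fx]
      exact h3
    apply ht
    apply H.ff
    intro x
    have : x ∈ fx N (zpowers t) := by rw [h4]; exact mem_top x
    exact mem_fx_zpowers.1 this
  -- the 2-central involution
  have h12 : 2 ∣ Nat.card K := by rw [H.card_K]; omega
  obtain ⟨z, hz1, hzz, hz⟩ := exists_central h12
  obtain ⟨m, hm, hzm⟩ := good z hz1 hzz
  have hcz := H.card_centralizer' hm hz1 hzz hzm
  rw [H.card_fx_good ht htt hn htn hz1 hzz hm hzm, he] at hcz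
  have hcK := H.card_K
  rw [hd', ← (centralizer ({z} : Set K)).card_mul_index, hcz] at hcK
  have hp3 : p % 2 = 1 := Nat.odd_iff.1 (H.prime.odd_of_ne_two hp)
  exact arith_odd (by omega) hp3 hz hcK.symm (by omega) hc1 hce' hed

end Hyp

end Cfsg.Agent.H310.A4Act
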