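import Cfsg.Agent.H310.VSylQuot
import Cfsg.Agent.S0483
import Cfsg.Agent.S0205

/-!
# Groups with a fused Sylow 2-subgroup of order 4: the numerical theorem
-/

set_option autoImplicit false

namespace Cfsg.Agent.H310.VSyl

open MulAction Subgroup Cfsg.Agent.TwoFusion.DihedralFusion
open Cfsg.Agent.Classification.DihedralCentral

universe u

theorem subDihedral {K : Type*} [Group K] [Finite K] (h8 : ¬ 8 ∣ Nat.card K) : SubDihedral K := by
  intro T hT
  have : Fact (Nat.Prime 2) := ⟨Nat.prime_two⟩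
  by_cases hc : IsCyclic T
  · exact ⟨T, hc, fun x hx hx' => absurd hx hx'⟩
  have h4 : Nat.card T ≤ 4 := VS0.isPGroup_card hT h8
  obtain ⟨k, hk⟩ := IsPGroup.iff_card.1 hT
  have hk2 : k = 2 := by
    rcases k with _ | _ | _ | k
    · exfalso
      apply hc
      have : Subsingleton T := (Nat.card_eq_one_iff_unique.1 (by rw [hk, pow_zero])).1
      infer_instance
    · exfalso
      exact hc (isCyclic_of_prime_card (p := 2) (by rw [hk, zero_add, pow_one]))
    · rfl
    · rw [hk] at h4
      have : 2 ^ 3 ≤ 2 ^ (k + 1 + 1 + 1) := Nat.pow_le_pow_right (by norm_num) (by omega)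
      omega
  subst hk2
  have hsq : ∀ x : K, x ∈ T → x * x = 1 := by
    intro x hx
    have h1 : orderOf (⟨x, hx⟩ : T) ∣ 2 ^ 2 := hk ▸ orderOf_dvd_natCard _
    obtain ⟨j, hj, hj'⟩ := (Nat.dvd_prime_pow Nat.prime_two).1 h1
    have h2 : j ≠ 2 := by
      intro h2
      apply hc
      rw [h2, ← hk] at hj'
      exact isCyclic_of_orderOf_eq_card _ hj'
    have h3 : orderOf (⟨x, hx⟩ : T) ∣ 2 := by
      rw [hj']
      have : j ≤ 1 := by omega
      exact (pow_dvd_pow 2 this).trans (by norm_num)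
    have h4 := orderOf_dvd_iff_pow_eq_one.1 h3
    rw [pow_two] at h4
    exact congrArg Subtype.val h4
  obtain ⟨a, ha⟩ : ∃ a : T, a ≠ 1 := by
    by_contra hcon
    push Not at hcon
    have : Nat.card T = 1 := Nat.card_eq_one_iff_unique.2 ⟨⟨fun x y => by rw [hcon x, hcon y]⟩, ⟨1⟩⟩
    omega
  have hao : orderOf a = 2 := orderOf_eq_prime (by rw [pow_two]; exact Subtype.ext (hsq a.1 a.2)) ha
  have hidx : (zpowers a).index = 2 := by
    have h1 := (zpowers a).card_mul_index
    rw [Nat.card_zpowers, hao, hk] at h1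
    omega
  refine ⟨zpowers (a : K), inferInstance, fun x hx hxR => ⟨hsq x hx, fun y hy hyR => ?_⟩⟩
  have key : ∀ z (hz : z ∈ T), z ∈ zpowers (a : K) ↔ (⟨z, hz⟩ : T) ∈ zpowers a := by
    intro z hz
    constructor
    · intro h
      obtain ⟨j, hj⟩ := mem_zpowers_iff.1 h
      exact mem_zpowers_iff.2 ⟨j, Subtype.ext hj⟩
    · intro h
      obtain ⟨j, hj⟩ := mem_zpowers_iff.1 h
      exact mem_zpowers_iff.2 ⟨j, congrArg Subtype.val hj⟩
  rw [key _ (mul_mem hx hy)]
  have h1 : (⟨x * y, mul_mem hx hy⟩ : T) = ⟨x, hx⟩ * ⟨y, hy⟩ := rfl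
  rw [h1, mul_mem_iff_of_index_two hidx, ← key, ← key]
  exact ⟨fun h => absurd h hxR, fun h => absurd h hyR⟩

/-- Sylow conjugation for subgroups of order 4 -/
theorem exists_conj_le {C : Type*} [Group C] [Finite C] (h8 : ¬ 8 ∣ Nat.card C) {P Q : Subgroup C}
    (hP : Nat.card P = 4) (hQ : Nat.card Q = 4) : ∃ c : C, ∀ x ∈ P, c * x * c⁻¹ ∈ Q := by
  have : Fact (Nat.Prime 2) := ⟨Nat.prime_two⟩
  have hPp : IsPGroup 2 P := IsPGroup.of_card (n := 2) hP
  have hQp : IsPGroup 2 Q := IsPGroup.of_card (n := 2) hQ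
  obtain ⟨P', hP'⟩ := hPp.exists_le_sylow
  obtain ⟨Q', hQ'⟩ := hQp.exists_le_sylow
  have hQ4 : Q = (Q' : Subgroup C) := Subgroup.eq_of_le_of_card_ge hQ' (by
    rw [hQ]; exact VS0.isPGroup_card Q'.2 h8)
  obtain ⟨c, hc⟩ := MulAction.exists_smul_eq C P' Q'
  refine ⟨c, fun x hx => ?_⟩
  rw [hQ4, ← hc]
  exact ⟨x, hP' hx, rfl⟩

theorem Eqn.base : Eqn 12 4 4 := ⟨1, one_pos, Or.inr (by norm_num)⟩

section simple

variable {K : Type u} [Group K] [Finite K] {t s : K}

theorem card_four_dvd {C : Type*} [Group C] [Finite C] {t s : C} (H : VS0 t s) :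
    4 ∣ Nat.card (centralizer ({t} : Set C)) := by
  have h1 : fourGroup t s H.tt H.ss H.comm ≤ centralizer {t} := fourGroup_le _ _ _
    (mem_centralizer_singleton_iff.2 rfl) (mem_centralizer_singleton_iff.2 H.comm.symm)
  have h2 := card_dvd_of_le h1
  rwa [(isKleinFour_fourGroup H.tt H.ss H.comm H.t1 H.s1 H.ne).card_four] at h2

/-- the simple case -/
theorem simple_case (H : VS0 t s) (L : Subgroup K) [L.Normal] (hr : ¬ 2 ∣ L.index) {F : Type*} [Field F] [Fintype F]
    (hF : Odd (Fintype.card F)) (e : L ≃* Matrix.ProjectiveSpecialLinearGroup (Fin 2) F) :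
    Eqn (Nat.card K) (Nat.card (centralizer ({t} : Set K))) (Nat.card (centralizer ({t, s} : Set K))) := by
  have h2 : (2 : F) ≠ 0 := Cfsg.Agent.ClassicalGeometry.SLTwoFour.two_ne_zero_of_odd hF
  have hin : ∀ x : K, x * x = 1 → x ∈ L := by
    intro x hx
    rw [← QuotientGroup.eq_one_iff]
    by_contra hne
    apply hr
    have h3 : orderOf (x : K ⧸ L) = 2 := orderOf_eq_prime (by
      rw [pow_two, ← QuotientGroup.mk_mul, hx, QuotientGroup.mk_one]) hne
    rw [← h3]
    exact orderOf_dvd_natCard _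
  have htL := hin t H.tt
  have hsL := hin s H.ss
  have hcard : Nat.card L * L.index = Nat.card K := L.card_mul_index
  have h8L : ¬ 8 ∣ Nat.card L := fun h => H.h8 (h.trans (Dvd.intro _ hcard))
  have HL : VS0 (⟨t, htL⟩ : L) ⟨s, hsL⟩ :=
    ⟨fun h => H.t1 (congrArg Subtype.val h), Subtype.ext H.tt, fun h => H.s1 (congrArg Subtype.val h),
      Subtype.ext H.ss, fun h => H.ne (congrArg Subtype.val h), Subtype.ext H.comm, h8L⟩
  obtain ⟨T, m, hT, hm⟩ := Cfsg.Agent.Lib.PSL2Torus.exists_torus h2 e HL.t1 HL.tt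
  have hct := hT.card_centralizer
  have h4 := card_four_dvd HL
  rw [hct] at h4
  obtain ⟨w, hw⟩ : ∃ w, m = 2 * w := ⟨m / 2, by omega⟩
  have hw0 : 0 < w := by
    have h5 : 0 < Nat.card (centralizer ({(⟨t, htL⟩ : L)} : Set L)) := Nat.card_pos
    omega
  -- the centralizer of `t`
  have hCt : Nat.card ↥(L ⊓ stabilizer K (toCj t)) = 4 * w := by
    have h5 : ((centralizer ({(⟨t, htL⟩ : L)} : Set L))).map L.subtype = L ⊓ stabilizer K (toCj t) := by
      ext x
      constructor
      · rintro ⟨y, hy, rfl⟩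
        refine ⟨y.2, mem_stab.2 ?_⟩
        exact congrArg Subtype.val (mem_centralizer_singleton_iff.1 hy)
      · rintro ⟨hx, hx'⟩
        refine ⟨⟨x, hx⟩, ?_, rfl⟩
        exact mem_centralizer_singleton_iff.2 (Subtype.ext (mem_stab.1 hx'))
    rw [← h5]
    have h6 := Nat.card_congr (((centralizer ({(⟨t, htL⟩ : L)} : Set L))).equivMapOfInjective _
      L.subtype_injective).toEquiv
    rw [← h6, hct, hw]
    ring
  have hSt : stabilizer K (toCj t) = centralizer {t} := by
    ext x
    rw [mem_stab, mem_centralizer_singleton_iff]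
  have ha : Nat.card (centralizer ({t} : Set K)) = L.index * (4 * w) := by
    rw [← hSt, ← hCt]
    refine card_normal L (toCj t) fun g => ?_
    have h5 : g * t * g⁻¹ ∈ L := (inferInstance : L.Normal).conj_mem t htL g
    obtain ⟨l, hl⟩ := Cfsg.Agent.Lib.PSL2Torus.conj_inv h2 e (t := ⟨t, htL⟩) (u := ⟨g * t * g⁻¹, h5⟩)
      HL.t1 HL.tt (by
        intro h6
        have h7 : g * t * g⁻¹ = 1 := congrArg Subtype.val h6
        rw [mul_inv_eq_one, mul_eq_left] at h7
        exact H.t1 h7)
      (Subtype.ext (by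
        change g * t * g⁻¹ * (g * t * g⁻¹) = 1
        calc g * t * g⁻¹ * (g * t * g⁻¹) = g * (t * t) * g⁻¹ := by group
          _ = 1 := by rw [H.tt, mul_one, mul_inv_cancel]))
    exact ⟨l, l.2, congrArg Subtype.val hl⟩
  -- the centralizer of `t, s`
  have hSts : stabilizer K ((toCj t, toCj s) : Cj K × Cj K) = centralizer {t, s} := by
    ext x
    rw [mem_centralizer_pair, ← mem_stab, ← mem_stab]
    constructor
    · intro h
      exact ⟨congrArg Prod.fst h, congrArg Prod.snd h⟩
    · rintro ⟨h5, h6⟩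
      exact Prod.ext h5 h6
  have hV4 := (isKleinFour_fourGroup H.tt H.ss H.comm H.t1 H.s1 H.ne).card_four
  have hb : Nat.card (centralizer ({t, s} : Set K)) = L.index * 4 := by
    have h5 : L ⊓ stabilizer K ((toCj t, toCj s) : Cj K × Cj K) = fourGroup t s H.tt H.ss H.comm := by
      rw [hSts]
      ext x
      rw [Subgroup.mem_inf, mem_centralizer_pair, mem_fourGroup]
      constructor
      · rintro ⟨hx, hxt, hxs⟩
        have := hT.centralizer_four (u := ⟨s, hsL⟩) (x := ⟨x, hx⟩) HL.s1 HL.ss HL.ne.symm HL.comm.symm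
          (Subtype.ext hxt) (Subtype.ext hxs)
        rcases this with h | h | h | h
        · exact Or.inl (congrArg Subtype.val h)
        · exact Or.inr (Or.inl (congrArg Subtype.val h))
        · exact Or.inr (Or.inr (Or.inl (congrArg Subtype.val h)))
        · exact Or.inr (Or.inr (Or.inr (congrArg Subtype.val h)))
      · rintro (rfl | rfl | rfl | rfl)
        · exact ⟨one_mem _, by simp, by simp⟩
        · exact ⟨htL, rfl, H.comm⟩
        · exact ⟨hsL, H.comm.symm, rfl⟩
        · refine ⟨mul_mem htL hsL, ?_, ?_⟩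
          · rw [mul_assoc, ← H.comm]
          · rw [← mul_assoc, ← H.comm]
    rw [← hSts, ← hV4, ← h5]
    refine card_normal L _ fun g => ?_
    -- move `g` into the centralizer of `t`
    have h6 : g * t * g⁻¹ ∈ L := (inferInstance : L.Normal).conj_mem t htL g
    obtain ⟨⟨l, hl⟩, hl'⟩ := Cfsg.Agent.Lib.PSL2Torus.conj_inv h2 e (t := ⟨t, htL⟩) (u := ⟨g * t * g⁻¹, h6⟩)
      HL.t1 HL.tt (by
        intro h6
        have h7 : g * t * g⁻¹ = 1 := congrArg Subtype.val h6
        rw [mul_inv_eq_one, mul_eq_left] at h7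
        exact H.t1 h7)
      (Subtype.ext (by
        change g * t * g⁻¹ * (g * t * g⁻¹) = 1
        calc g * t * g⁻¹ * (g * t * g⁻¹) = g * (t * t) * g⁻¹ := by group
          _ = 1 := by rw [H.tt, mul_one, mul_inv_cancel]))
    have hlt : l * t * l⁻¹ = g * t * g⁻¹ := congrArg Subtype.val hl'
    set g1 := l⁻¹ * g with hg1
    have hg1t : g1 * t * g1⁻¹ = t := by
      rw [hg1]
      calc l⁻¹ * g * t * (l⁻¹ * g)⁻¹ = l⁻¹ * (g * t * g⁻¹) * l := by group
        _ = t := by rw [← hlt]; group
    set s1 := g1 * s * g1⁻¹ with hs1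
    have hs1L : s1 ∈ L := (inferInstance : L.Normal).conj_mem s hsL g1
    have hs1s : s1 * s1 = 1 := by
      rw [hs1]
      calc g1 * s * g1⁻¹ * (g1 * s * g1⁻¹) = g1 * (s * s) * g1⁻¹ := by group
        _ = 1 := by rw [H.ss, mul_one, mul_inv_cancel]
    have hs11 : s1 ≠ 1 := by
      intro h
      rw [hs1, mul_inv_eq_one, mul_eq_left] at h
      exact H.s1 h
    have hts1 : t ≠ s1 := by
      intro h
      apply H.ne
      have : g1 * t * g1⁻¹ = g1 * s * g1⁻¹ := by rw [hg1t]; exact h
      simpa using this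
    have hcs1 : t * s1 = s1 * t := by
      calc t * s1 = (g1 * t * g1⁻¹) * (g1 * s * g1⁻¹) := by rw [hg1t]
        _ = g1 * (t * s) * g1⁻¹ := by group
        _ = (g1 * s * g1⁻¹) * (g1 * t * g1⁻¹) := by rw [H.comm]; group
        _ = s1 * t := by rw [hg1t]
    -- Sylow in `C_L(t)`
    set C : Subgroup K := L ⊓ centralizer {t} with hC
    have h8C : ¬ 8 ∣ Nat.card C := fun h => H.h8 (h.trans (card_subgroup_dvd_card C))
    have hVC : fourGroup t s H.tt H.ss H.comm ≤ C := fourGroup_le _ _ _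
      ⟨htL, mem_centralizer_singleton_iff.2 rfl⟩ ⟨hsL, mem_centralizer_singleton_iff.2 H.comm.symm⟩
    have hV1C : fourGroup t s1 H.tt hs1s hcs1 ≤ C := fourGroup_le _ _ _
      ⟨htL, mem_centralizer_singleton_iff.2 rfl⟩ ⟨hs1L, mem_centralizer_singleton_iff.2 hcs1.symm⟩
    have hV14 := (isKleinFour_fourGroup H.tt hs1s hcs1 H.t1 hs11 hts1).card_four
    obtain ⟨c, hc⟩ := exists_conj_le h8C
      (P := (fourGroup t s1 H.tt hs1s hcs1).subgroupOf C) (Q := (fourGroup t s H.tt H.ss H.comm).subgroupOf C)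
      (by rw [Nat.card_congr (subgroupOfEquivOfLe hV1C).toEquiv]; exact hV14)
      (by rw [Nat.card_congr (subgroupOfEquivOfLe hVC).toEquiv]; exact hV4)
    have hc1 : (c : K) * s1 * (c : K)⁻¹ ∈ fourGroup t s H.tt H.ss H.comm :=
      hc ⟨s1, hV1C (right_mem_fourGroup H.tt hs1s hcs1)⟩ (right_mem_fourGroup H.tt hs1s hcs1)
    have hct : (c : K) * t * (c : K)⁻¹ = t :=
      mul_inv_eq_iff_eq_mul.2 (mem_centralizer_singleton_iff.1 c.2.2)
    have hfix : ((c : K) * g1) * s * ((c : K) * g1)⁻¹ = s := by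
      have h7 : ((c : K) * g1) * s * ((c : K) * g1)⁻¹ = c * s1 * (c : K)⁻¹ := by rw [hs1]; group
      apply H.fix
      · calc ((c : K) * g1) * t * ((c : K) * g1)⁻¹ = c * (g1 * t * g1⁻¹) * (c : K)⁻¹ := by group
          _ = t := by rw [hg1t, hct]
      · rw [h7]
        rcases hc1 with h | h | h | h
        · rw [mul_inv_eq_one, mul_eq_left] at h
          exact absurd h hs11
        · exfalso
          apply hts1
          have h8 : (c : K) * s1 * (c : K)⁻¹ = c * t * (c : K)⁻¹ := by rw [h, hct]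
          have h9 : s1 = t := by simpa using h8
          exact h9.symm
        · exact Or.inl h
        · exact Or.inr h
    refine ⟨l * (c : K)⁻¹, mul_mem hl (inv_mem c.2.1), Prod.ext ?_ ?_⟩
    · change l * (c : K)⁻¹ * t * (l * (c : K)⁻¹)⁻¹ = g * t * g⁻¹
      calc l * (c : K)⁻¹ * t * (l * (c : K)⁻¹)⁻¹ = l * ((c : K)⁻¹ * t * c) * l⁻¹ := by group
        _ = l * t * l⁻¹ := by
          congr 2
          calc (c : K)⁻¹ * t * c = (c : K)⁻¹ * (c * t * (c : K)⁻¹) * c := by rw [hct]
            _ = t := by group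
        _ = _ := hlt
    · change l * (c : K)⁻¹ * s * (l * (c : K)⁻¹)⁻¹ = g * s * g⁻¹
      calc l * (c : K)⁻¹ * s * (l * (c : K)⁻¹)⁻¹ =
            l * (c : K)⁻¹ * (((c : K) * g1) * s * ((c : K) * g1)⁻¹) * (l * (c : K)⁻¹)⁻¹ := by rw [hfix]
        _ = g * s * g⁻¹ := by rw [hg1]; group
  -- the order of `L`
  have hLc : Nat.card L * 2 = Fintype.card F * (Fintype.card F ^ 2 - 1) := by
    rw [← Cfsg.Agent.ClassicalGeometry.PSL2Basic.card_PSL2_odd F hF, Nat.card_congr e.toEquiv]
  rw [Nat.card_eq_fintype_card] at hm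
  have hq1 : 1 < Fintype.card F := Fintype.one_lt_card
  have hqq : Fintype.card F ^ 2 - 1 = (Fintype.card F - 1) * (Fintype.card F + 1) := by
    obtain ⟨k, hk⟩ := Nat.exists_eq_add_of_le hq1.le
    rw [hk]
    have : (1 + k) ^ 2 - 1 = k * (k + 2) := by
      have : (1 + k) ^ 2 = k * (k + 2) + 1 := by ring
      omega
    rw [this, Nat.add_sub_cancel_left]; ring
  rw [hqq] at hLc
  refine ⟨w, hw0, ?_⟩
  rw [← hcard, ha, hb]
  rcases hm with ⟨-, hm⟩ | ⟨-, hm⟩
  · left
    have hq : Fintype.card F = 4 * w + 1 := by omega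
    have hL : Nat.card L = (4 * w + 1) * (4 * w) * (2 * w + 1) := by
      rw [hq, Nat.add_sub_cancel] at hLc
      have : Nat.card L * 2 = (4 * w + 1) * (4 * w) * (2 * w + 1) * 2 := by rw [hLc]; ring
      omega
    rw [hL]
    ring
  · right
    obtain ⟨v, hv⟩ : ∃ v, w = v + 1 := ⟨w - 1, by omega⟩
    have hq : Fintype.card F = 4 * v + 3 := by omega
    have hL : Nat.card L = (4 * v + 3) * (2 * v + 1) * (4 * (v + 1)) := by
      rw [hq] at hLc
      have h5 : 4 * v + 3 - 1 = 4 * v + 2 := by omega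
      rw [h5] at hLc
      have : Nat.card L * 2 = (4 * v + 3) * (2 * v + 1) * (4 * (v + 1)) * 2 := by rw [hLc]; ring
      omega
    rw [hL, hv]
    ring

end simple

/-- **Core-free groups.** -/
theorem core_free {K : Type u} [Group K] [Finite K] {t s : K} (H : VS t s) (hO : Cfsg.oddCore K = ⊥) :
    Eqn (Nat.card K) (Nat.card (centralizer ({t} : Set K))) (Nat.card (centralizer ({t, s} : Set K))) := by
  have : Fact (Nat.Prime 2) := ⟨Nat.prime_two⟩
  have hV4 := (isKleinFour_fourGroup H.tt H.ss H.comm H.t1 H.s1 H.ne).card_four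
  have hVp : IsPGroup 2 (fourGroup t s H.tt H.ss H.comm) := IsPGroup.of_card (n := 2) hV4
  -- `t` is not central
  have hnc : centralizer ({t} : Set K) ≠ ⊤ := by
    intro h
    obtain ⟨g, hg⟩ := H.c1
    have h1 : g ∈ centralizer ({t} : Set K) := by rw [h]; exact mem_top g
    rw [mem_centralizer_singleton_iff] at h1
    rw [h1, mul_inv_cancel_right] at hg
    exact H.ne hg
  rcases Cfsg.Agent.Classification.DihStructure.structure_of_core_free
      (fun _ _ _ h => Cfsg.Agent.S0205.result h) (subDihedral H.h8) hO with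
    h | ⟨V, hVn, hV, hc, hi⟩ | ⟨L, hLn, hLs, hc, h4i, S, m, hm, hS⟩
  · exfalso
    have h1 : IsPGroup 2 (⊤ : Subgroup K) := h.to_subgroup ⊤
    have h2 := VS0.isPGroup_card h1 H.h8
    have h3 : fourGroup t s H.tt H.ss H.comm = ⊤ := Subgroup.eq_of_le_of_card_ge le_top (by rw [hV4]; exact h2)
    apply hnc
    rw [eq_top_iff, ← h3]
    exact fourGroup_le _ _ _ (mem_centralizer_singleton_iff.2 rfl) (mem_centralizer_singleton_iff.2 H.comm.symm)
  · -- the case `A₄`
    have hVc := hV.card_four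
    have hK := V.card_mul_index
    have hV2 : IsPGroup 2 V := IsPGroup.of_card (n := 2) hVc
    have hKc : Nat.card K = 12 := by
      rcases hi with hi | hi
      · rw [← hK, hVc, hi]
      · exfalso
        apply H.h8
        rw [← hK, hVc, hi]
        norm_num
    have h1 : IsPGroup 2 (fourGroup t s H.tt H.ss H.comm ⊔ V : Subgroup K) := hVp.to_sup_of_normal_right hV2
    have h2 := VS0.isPGroup_card h1 H.h8
    have h3 : fourGroup t s H.tt H.ss H.comm = fourGroup t s H.tt H.ss H.comm ⊔ V :=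
      Subgroup.eq_of_le_of_card_ge le_sup_left (by rw [hV4]; exact h2)
    have h4 : V = fourGroup t s H.tt H.ss H.comm ⊔ V :=
      Subgroup.eq_of_le_of_card_ge le_sup_right (by rw [hVc]; exact h2)
    have h5 : fourGroup t s H.tt H.ss H.comm = V := by rw [h3, ← h4]
    have hb : Nat.card (centralizer ({t, s} : Set K)) = 4 := by
      rw [← centralizer_four_eq H.tt H.ss H.comm, h5, hc, hVc]
    have ha : Nat.card (centralizer ({t} : Set K)) = 4 := by
      have h6 := card_four_dvd H.toVS0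
      have h7 := card_subgroup_dvd_card (centralizer ({t} : Set K))
      rw [hKc] at h7
      have h8 : Nat.card (centralizer ({t} : Set K)) ≠ 12 := by
        intro h8
        exact hnc (Subgroup.eq_top_of_card_eq _ (by rw [h8, hKc]))
      obtain ⟨j, hj⟩ := h6
      rw [hj] at h7 h8 ⊢
      have h9 : 4 * j ≤ 12 := Nat.le_of_dvd (by norm_num) h7
      have hj3 : j ≤ 3 := by omega
      interval_cases j
      · simp at h7
      · rfl
      · exfalso; revert h7; decide
      · exfalso; exact h8 rfl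
    rw [hKc, ha, hb]
    exact Eqn.base
  · -- the simple case
    obtain ⟨eS⟩ := hS
    have h4 : 4 ∣ Nat.card L := by
      have h1 : Nat.card (S : Subgroup L) = 2 * m := by
        rw [Nat.card_congr eS.toEquiv, DihedralGroup.nat_card]
      have h2 : 2 ∣ m := by
        obtain ⟨k, hk⟩ := S.2.exists_card_eq
        rw [h1] at hk
        rcases k with _ | _ | k
        · omega
        · omega
        · rw [pow_succ, pow_succ] at hk
          omega
      have h3 : 4 ∣ Nat.card (S : Subgroup L) := by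
        rw [h1]
        omega
      exact h3.trans (card_subgroup_dvd_card _)
    have hr : ¬ 2 ∣ L.index := by
      intro h
      apply H.h8
      rw [← L.card_mul_index]
      exact mul_dvd_mul h4 h
    have h8L : ¬ 8 ∣ Nat.card L := fun h => H.h8 (h.trans (card_subgroup_dvd_card L))
    have hna : ¬ ∀ a b : L, a * b = b * a := by
      intro hcomm
      let : CommGroup L := { (inferInstance : Group L) with mul_comm := hcomm }
      have h1 := IsSimpleGroup.prime_card (α := L)
      have h2 := (Nat.dvd_prime h1).1 h4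
      rcases h2 with h2 | h2
      · omega
      · rw [← h2] at h1
        revert h1
        decide
    have hperf : Group.IsPerfect L := by
      refine ⟨?_⟩
      rcases hLs.eq_bot_or_eq_top_of_normal (commutator L) inferInstance with h | h
      · exfalso
        apply hna
        intro a b
        have h1 : ⁅(⊤ : Subgroup L), ⊤⁆ = ⊥ := h
        rw [commutator_eq_bot_iff_le_centralizer] at h1
        exact (mem_centralizer_iff.1 (h1 (mem_top b)) a (mem_top a))
      · exact h
    have hOL : Cfsg.oddCore L = ⊥ := by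
      rcases hLs.eq_bot_or_eq_top_of_normal (Cfsg.oddCore L)
        (Cfsg.Agent.Lib.Cores.pPrimeCore_normal 2) with h | h
      · exact h
      · exfalso
        have h1 := Cfsg.Agent.Lib.Cores.pPrimeCore_coprime (G := L) 2
        have h2 : Cfsg.pPrimeCore 2 L = ⊤ := h
        rw [h2, card_top, Nat.coprime_two_right, Nat.odd_iff] at h1
        omega
    have e0 : L ≃* L ⧸ Cfsg.oddCore L :=
      (QuotientGroup.quotientBot.symm).trans (QuotientGroup.quotientMulEquivOfEq hOL.symm)
    rcases Cfsg.Agent.S0483.result S m hm ⟨eS⟩ with ⟨F, iF, iFt, hodd, -, ⟨φ⟩⟩ | ⟨⟨φ⟩⟩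
    · exact simple_case H.toVS0 L hr hodd (e0.trans φ)
    · exfalso
      apply h8L
      rw [Nat.card_congr (e0.trans φ).toEquiv, nat_card_alternatingGroup, Nat.card_eq_fintype_card,
        Fintype.card_fin]
      decide

/-- **Groups with a fused Sylow 2-subgroup `{1, t, s, ts}` of order 4.** -/
theorem main {K : Type u} [Group K] [Finite K] {t s : K} (H : VS t s) :
    Eqn (Nat.card K) (Nat.card (centralizer ({t} : Set K))) (Nat.card (centralizer ({t, s} : Set K))) := by
  have hn : (Cfsg.oddCore K).Normal := Cfsg.Agent.Lib.Cores.pPrimeCore_normal 2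
  have hc : (Nat.card (Cfsg.oddCore K)).Coprime 2 := Cfsg.Agent.Lib.Cores.pPrimeCore_coprime (G := K) 2
  have hodd : Odd (Nat.card (QuotientGroup.mk' (Cfsg.oddCore K)).ker) := by
    rw [QuotientGroup.ker_mk', Nat.odd_iff]
    rw [Nat.coprime_two_right] at hc
    exact Nat.odd_iff.1 hc
  refine H.quot_eqn _ (QuotientGroup.mk'_surjective _) hodd ?_
  apply core_free (H.quot _ (QuotientGroup.mk'_surjective _) hodd)
  exact Cfsg.Agent.Lib.Cores.pPrimeCore_quotient_pPrimeCore (G := K) 2

end Cfsg.Agent.H310.VSyl
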