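import Cfsg.Agent.H310.A4Odd
import Cfsg.Agent.H310.VSylMain

/-!
# Groups transitive on the nonzero vectors with stabilizers `A₄`: characteristic 2, numbers
-/

set_option autoImplicit false

namespace Cfsg.Agent.H310.A4Act

open MulAction Subgroup

theorem arith_e {d e : ℕ} (he : 1 ≤ e) (hed : e < d) (hd : d ≤ 2 * e) (h : (2 ^ e - 1) ∣ 3 * (2 ^ d - 1)) :
    d = 2 * e ∨ (d = 3 ∧ e = 2) := by
  by_contra hcon
  push Not at hcon
  obtain ⟨r, hr⟩ : ∃ r, d = e + r := ⟨d - e, by omega⟩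
  obtain ⟨i, hi⟩ : ∃ i, e = r + i := ⟨e - r, by omega⟩
  have hi1 : 1 ≤ i := by omega
  have hr1 : 1 ≤ r := by omega
  have hr2 : 2 ≤ 2 ^ r := by
    calc 2 = 2 ^ 1 := rfl
      _ ≤ 2 ^ r := Nat.pow_le_pow_right (by norm_num) hr1
  have hi2 : 2 ≤ 2 ^ i := by
    calc 2 = 2 ^ 1 := rfl
      _ ≤ 2 ^ i := Nat.pow_le_pow_right (by norm_num) hi1
  have h1 : (2 ^ e - 1) ∣ 3 * (2 ^ r - 1) := by
    have h2 : 3 * (2 ^ d - 1) = (2 ^ e - 1) * (3 * 2 ^ r) + 3 * (2 ^ r - 1) := by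
      have h3 : 1 ≤ 2 ^ e := Nat.one_le_two_pow
      obtain ⟨x, hx⟩ := Nat.exists_eq_add_of_le h3
      obtain ⟨y, hy⟩ := Nat.exists_eq_add_of_le (show 1 ≤ 2 ^ r by omega)
      have h4 : 2 ^ d = (1 + x) * (1 + y) := by rw [hr, pow_add, hx, hy]
      rw [h4, hx, hy]
      have h5 : (1 + x) * (1 + y) - 1 = x + y + x * y := by
        have : (1 + x) * (1 + y) = x + y + x * y + 1 := by ring
        omega
      rw [h5, Nat.add_sub_cancel_left, Nat.add_sub_cancel_left]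
      ring
    rw [h2] at h
    exact (Nat.dvd_add_right (Dvd.intro _ rfl)).1 h
  obtain ⟨j, hj⟩ := h1
  have hE : 2 ^ e = 2 ^ r * 2 ^ i := by rw [hi, pow_add]
  rw [hE] at hj
  have hj0 : j ≠ 0 := by
    rintro rfl
    omega
  have hile : 2 ^ i < 4 := by
    by_contra h3
    push Not at h3
    have h4 : 2 ^ r * 4 ≤ 2 ^ r * 2 ^ i := Nat.mul_le_mul_left _ h3
    have h5 : (2 ^ r * 2 ^ i - 1) * 1 ≤ (2 ^ r * 2 ^ i - 1) * j := Nat.mul_le_mul_left _ (by omega)
    omega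
  have hi3 : i < 2 := (Nat.pow_lt_pow_iff_right (a := 2) (by norm_num)).1 hile
  have hi4 : i = 1 := by omega
  subst hi4
  rw [pow_one] at hj
  have hj1 : j < 2 := by
    by_contra h3
    push Not at h3
    have h5 : (2 ^ r * 2 - 1) * 2 ≤ (2 ^ r * 2 - 1) * j := Nat.mul_le_mul_left _ (by omega)
    omega
  have hj2 : j = 1 := by omega
  rw [hj2, mul_one] at hj
  have h6 : 2 ^ r = 2 ^ 1 := by omega
  have h7 := Nat.pow_right_injective (le_refl 2) h6
  omega

theorem arith_c {e c : ℕ} (hc : 1 ≤ c) (hce : c ≤ e) (he : e ≤ 2 * c) (h : (2 ^ c - 1) ∣ (2 ^ e - 1)) :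
    e = c ∨ e = 2 * c := by
  have h1 := Nat.pow_sub_one_gcd_pow_sub_one 2 c e
  rw [Nat.gcd_eq_left h] at h1
  have h2 : 1 ≤ 2 ^ c := Nat.one_le_two_pow
  have h3 : 1 ≤ 2 ^ Nat.gcd c e := Nat.one_le_two_pow
  have h4 : 2 ^ c = 2 ^ Nat.gcd c e := by omega
  have h5 := Nat.pow_right_injective (le_refl 2) h4
  have h6 : c ∣ e := by
    rw [h5]; exact Nat.gcd_dvd_right c e
  obtain ⟨k, hk⟩ := h6
  have hk3 : k < 3 := by
    by_contra h7
    push Not at h7
    have : c * 3 ≤ c * k := Nat.mul_le_mul_left _ h7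
    omega
  interval_cases k
  · omega
  · left; omega
  · right; omega

theorem arith_two {c d e u : ℕ} (hc : 1 ≤ c) (hce : c ≤ e) (he : e ≤ 2 * c) (hed : e < d) (hd : d ≤ 2 * e)
    (h1 : (2 ^ e - 1) ∣ 3 * (2 ^ d - 1)) (h2 : (2 ^ c - 1) ∣ (2 ^ e - 1)) (hu : 0 < u)
    (h : 3 * (2 ^ d - 1) * (2 ^ c - 1) ^ 2 * u ^ 2 = (8 * u ^ 2 + 6 * u + 1) * (2 ^ e - 1) ^ 3 ∨
      3 * (2 ^ d - 1) * (2 ^ c - 1) ^ 2 * u ^ 2 + 6 * u * (2 ^ e - 1) ^ 3 = (8 * u ^ 2 + 1) * (2 ^ e - 1) ^ 3) :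
    d = 4 ∧ e = 2 ∧ c = 2 := by
  have hc2 : 2 ≤ 2 ^ c := by
    calc 2 = 2 ^ 1 := rfl
      _ ≤ 2 ^ c := Nat.pow_le_pow_right (by norm_num) hc
  rcases arith_e (by omega) hed hd h1 with hd' | ⟨rfl, rfl⟩
  · -- `d = 2 e`
    obtain ⟨E, hE⟩ : ∃ E, 2 ^ e = E + 1 := ⟨2 ^ e - 1, by have := Nat.one_le_two_pow (n := e); omega⟩
    have hE0 : 0 < E := by
      have : 2 ^ c ≤ 2 ^ e := Nat.pow_le_pow_right (by norm_num) hce
      omega
    have hD : 2 ^ d = E * (E + 2) + 1 := by rw [hd', mul_comm, pow_mul, hE]; ring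
    rw [hD, hE, Nat.add_sub_cancel, Nat.add_sub_cancel] at h
    rcases arith_c hc hce he h2 with h3 | h3
    · -- `e = c`
      rw [← h3, hE, Nat.add_sub_cancel] at h
      have h4 : 3 * (E + 2) * u ^ 2 = 8 * u ^ 2 + 6 * u + 1 ∨ 3 * (E + 2) * u ^ 2 + 6 * u = 8 * u ^ 2 + 1 := by
        have hE3 : 0 < E ^ 3 := by positivity
        rcases h with h | h
        · left
          apply Nat.eq_of_mul_eq_mul_right hE3
          rw [← h]; ring
        · right
          apply Nat.eq_of_mul_eq_mul_right hE3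
          rw [← h]; ring
      have h5 : u = 1 := by
        rcases h4 with h4 | h4
        · have h6 : u ∣ 8 * u ^ 2 + 6 * u + 1 := by rw [← h4]; exact Dvd.intro_left (3 * (E + 2) * u) (by ring)
          have h7 : u ∣ 8 * u ^ 2 + 6 * u := ⟨8 * u + 6, by ring⟩
          exact Nat.dvd_one.1 ((Nat.dvd_add_right h7).1 h6)
        · have h6 : u ∣ 8 * u ^ 2 + 1 := by rw [← h4]; exact ⟨3 * (E + 2) * u + 6, by ring⟩
          have h7 : u ∣ 8 * u ^ 2 := ⟨8 * u, by ring⟩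
          exact Nat.dvd_one.1 ((Nat.dvd_add_right h7).1 h6)
      subst h5
      have h6 : E = 3 := by
        rcases h4 with h4 | h4 <;> omega
      have h7 : 2 ^ e = 2 ^ 2 := by rw [hE, h6]; norm_num
      have h8 := Nat.pow_right_injective (le_refl 2) h7
      omega
    · -- `e = 2 c`
      exfalso
      obtain ⟨C, hC⟩ : ∃ C, 2 ^ c = C + 1 := ⟨2 ^ c - 1, by omega⟩
      have hC0 : 0 < C := by omega
      have hEC : E = C * (C + 2) := by
        have : E + 1 = C * (C + 2) + 1 := by rw [← hE, h3, mul_comm, pow_mul, hC]; ring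
        omega
      rw [hC, Nat.add_sub_cancel, hEC] at h
      have hC3 : 0 < C ^ 3 * (C + 2) := by positivity
      have h4 : 3 * (C * (C + 2) + 2) * u ^ 2 = (8 * u ^ 2 + 6 * u + 1) * (C + 2) ^ 2 ∨
          3 * (C * (C + 2) + 2) * u ^ 2 + 6 * u * (C + 2) ^ 2 = (8 * u ^ 2 + 1) * (C + 2) ^ 2 := by
        rcases h with h | h
        · left
          apply Nat.eq_of_mul_eq_mul_right hC3
          calc 3 * (C * (C + 2) + 2) * u ^ 2 * (C ^ 3 * (C + 2)) =
                3 * (C * (C + 2) * (C * (C + 2) + 2)) * C ^ 2 * u ^ 2 := by ring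
            _ = _ := h
            _ = _ := by ring
        · right
          apply Nat.eq_of_mul_eq_mul_right hC3
          calc (3 * (C * (C + 2) + 2) * u ^ 2 + 6 * u * (C + 2) ^ 2) * (C ^ 3 * (C + 2)) =
                3 * (C * (C + 2) * (C * (C + 2) + 2)) * C ^ 2 * u ^ 2 + 6 * u * (C * (C + 2)) ^ 3 := by ring
            _ = _ := h
            _ = _ := by ring
      rcases h4 with h4 | h4
      · nlinarith [Nat.mul_le_mul hC0 hu, sq_nonneg (C * u), sq_nonneg u, Nat.mul_pos hC0 hu]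
      · rcases Nat.lt_or_ge u 2 with hu2 | hu2
        · have : u = 1 := by omega
          subst this
          nlinarith
        · obtain ⟨v, rfl⟩ := Nat.exists_eq_add_of_le hu2
          nlinarith [sq_nonneg (C * v), sq_nonneg v, sq_nonneg C, Nat.zero_le (C * v), Nat.zero_le (C ^ 2 * v), Nat.zero_le (C * v ^ 2), Nat.zero_le (C ^ 2 * v ^ 2)]
  · -- `d = 3`, `e = 2`
    exfalso
    have hcc : c = 1 ∨ c = 2 := by omega
    norm_num at h
    rcases hcc with rfl | rfl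
    · norm_num at h
      rcases h with h | h
      · nlinarith
      · nlinarith
    · norm_num at h
      rcases h with h | h
      · nlinarith
      · have h5 : u ∣ 1 := by
          have h6 : u ∣ 189 * u ^ 2 + 6 * u * 27 := ⟨189 * u + 6 * 27, by ring⟩
          rw [h] at h6
          have h7 : u ∣ (8 * u ^ 2) * 27 := ⟨8 * u * 27, by ring⟩
          have h8 : u ∣ 27 := by
            rw [add_mul, one_mul] at h6
            exact (Nat.dvd_add_right h7).1 h6
          have h9 : u ∣ 27 := h8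
          have h10 : u ≤ 27 := Nat.le_of_dvd (by norm_num) h9
          interval_cases u <;> omega
        have h6 : u = 1 := Nat.dvd_one.1 h5
        subst h6
        omega

end Cfsg.Agent.H310.A4Act
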