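import Cfsg.Agent.H310.A4TwoGeo

/-!
# Groups transitive on the nonzero vectors with stabilizers `A₄`: the central element of order 3
-/

set_option autoImplicit false

namespace Cfsg.Agent.H310.A4Act

open MulAction Subgroup Cfsg.Agent.TwoFusion.DihedralFusion

namespace Hyp

universe u

variable {K : Type u} {N : Type*} [Group K] [CommGroup N] [MulDistribMulAction K N]
variable [Finite K] [Finite N] (H : Hyp K N 2)
include H

/-- `N(V)` contains the stabilizer -/
theorem stab_le_normalizer {t s : K} {n : N} (F : Fours t s n) :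
    stabilizer K n ≤ normalizer ((fourGroup t s F.tt F.ss F.comm.symm : Subgroup K) : Set K) := by
  intro g hg
  refine Subgroup.mem_normalizer_fintype fun x hx => ?_
  have hxx : x * x = 1 := sq_of_mem_fourGroup _ _ _ hx
  have hxn : x • n = n := by
    rcases hx with rfl | rfl | rfl | rfl
    · exact one_smul _ _
    · exact F.tn
    · exact F.sn
    · rw [mul_smul, F.sn, F.tn]
  have hg' : g • n = n := hg
  refine H.mem_four_iff F ?_ ?_
  · calc g * x * g⁻¹ * (g * x * g⁻¹) = g * (x * x) * g⁻¹ := by group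
      _ = 1 := by rw [hxx, mul_one, mul_inv_cancel]
  · rw [mul_smul, mul_smul, inv_smul_eq_iff.2 hg'.symm, hxn, hg']

theorem card_normalizer {t s : K} {n : N} (F : Fours t s n) :
    Nat.card (normalizer ((fourGroup t s F.tt F.ss F.comm.symm : Subgroup K) : Set K)) = 36 := by
  have h0 : Nat.card {x : N // t • x = x ∧ s • x = x} = Nat.card ↥(fx N (zpowers t) ⊓ fx N (zpowers s)) :=
    Nat.card_congr (Equiv.subtypeEquivRight fun x => by rw [Subgroup.mem_inf, mem_fx_zpowers, mem_fx_zpowers])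
  have h1 := card_eq (normalizer ((fourGroup t s F.tt F.ss F.comm.symm : Subgroup K) : Set K))
    {m : N | m ∈ fx N (zpowers t) ⊓ fx N (zpowers s) ∧ m ≠ 1} n (by
    ext m
    constructor
    · rintro ⟨⟨k, hk⟩, rfl⟩
      change k • n ∈ _
      have hfix : ∀ x ∈ fourGroup t s F.tt F.ss F.comm.symm, x • (k • n) = k • n := by
        intro x hx
        have h2 : k⁻¹ * x * k ∈ fourGroup t s F.tt F.ss F.comm.symm := by
          have := (Subgroup.mem_normalizer_iff''.1 hk x).1 hx
          exact this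
        have h3 : (k⁻¹ * x * k) • n = n := by
          rcases h2 with h | h | h | h
          · rw [h, one_smul]
          · rw [h, F.tn]
          · rw [h, F.sn]
          · rw [h, mul_smul, F.sn, F.tn]
        calc x • k • n = k • ((k⁻¹ * x * k) • n) := by
              rw [← mul_smul, ← mul_smul]; congr 1; group
          _ = k • n := by rw [h3]
      refine ⟨⟨mem_fx_zpowers.2 (hfix t (left_mem_fourGroup _ _ _)),
        mem_fx_zpowers.2 (hfix s (right_mem_fourGroup _ _ _))⟩, fun h => F.n1 ?_⟩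
      rwa [smul_eq_iff_eq_inv_smul, smul_one] at h
    · rintro ⟨⟨hm, hm'⟩, hm1⟩
      obtain ⟨g, h2, h3, h4⟩ := H.exists_move F hm1 (mem_fx_zpowers.1 hm) (mem_fx_zpowers.1 hm')
      refine ⟨⟨g, ?_⟩, h2⟩
      refine Subgroup.mem_normalizer_fintype fun x hx => ?_
      rcases hx with rfl | rfl | rfl | rfl
      · simp [one_mem]
      · rw [h3]; exact left_mem_fourGroup _ _ _
      · rw [h4]; exact right_mem_fourGroup _ _ _
      · have : g * (t * s) * g⁻¹ = (g * t * g⁻¹) * (g * s * g⁻¹) := by group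
        rw [this, h3, h4]
        exact Or.inr (Or.inr (Or.inr rfl)))
  rw [H.ncard_ne, inf_eq_right.2 (H.stab_le_normalizer F), H.stab_card F.n1, ← h0, (H.numbers F).2.2] at h1
  exact h1

/-- a Sylow 2-subgroup -/
theorem exists_sylow {t s : K} {n : N} (F : Fours t s n) :
    ∃ P : Sylow 2 K, (P : Subgroup K) = fourGroup t s F.tt F.ss F.comm.symm := by
  have : Fact (Nat.Prime 2) := ⟨Nat.prime_two⟩
  have V := H.vs F
  have h4 := (isKleinFour_fourGroup F.tt F.ss F.comm.symm F.t1 F.s1 F.st.symm).card_four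
  have hp : IsPGroup 2 (fourGroup t s F.tt F.ss F.comm.symm) := IsPGroup.of_card (n := 2) h4
  obtain ⟨P, hP⟩ := hp.exists_le_sylow
  refine ⟨P, (Subgroup.eq_of_le_of_card_ge hP ?_).symm⟩
  rw [h4]
  exact VSyl.VS0.isPGroup_card P.2 V.h8

theorem card_sylow {t s : K} {n : N} (F : Fours t s n) : Nat.card (Sylow 2 K) = 5 := by
  have : Fact (Nat.Prime 2) := ⟨Nat.prime_two⟩
  obtain ⟨P, hP⟩ := H.exists_sylow F
  have hPS : (P : Set K) = (fourGroup t s F.tt F.ss F.comm.symm : Subgroup K) :=
    congrArg (fun S : Subgroup K => (S : Set K)) hP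
  rw [P.card_eq_index_normalizer, hPS]
  have h1 := (normalizer ((fourGroup t s F.tt F.ss F.comm.symm : Subgroup K) : Set K)).card_mul_index
  rw [H.card_normalizer F, (H.numbers F).2.1] at h1
  omega

/-- all involutions are conjugate to `t` -/
theorem conj_all {t s : K} {n : N} (F : Fours t s n) {x : K} (hx : x ≠ 1) (hxx : x * x = 1) :
    ∃ g : K, g * x * g⁻¹ = t := by
  have : Fact (Nat.Prime 2) := ⟨Nat.prime_two⟩
  obtain ⟨P, hP⟩ := H.exists_sylow F
  have hp : IsPGroup 2 (zpowers x) := by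
    have : orderOf x = 2 ^ 1 := by rw [pow_one]; exact orderOf_eq_prime (by rw [pow_two, hxx]) hx
    exact IsPGroup.of_card (n := 1) (by rw [Nat.card_zpowers, this])
  obtain ⟨R, hR⟩ := hp.exists_le_sylow
  obtain ⟨g, hg⟩ := MulAction.exists_smul_eq K R P
  have h1 : g * x * g⁻¹ ∈ fourGroup t s F.tt F.ss F.comm.symm := by
    rw [← hP, ← hg]
    exact ⟨x, hR (mem_zpowers x), rfl⟩
  have h2 : g * x * g⁻¹ ≠ 1 := by
    intro h
    rw [mul_inv_eq_one, mul_eq_left] at h
    exact hx h
  have h3 : (g * x * g⁻¹) • n = n := by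
    rcases h1 with h | h | h | h
    · rw [h, one_smul]
    · rw [h, F.tn]
    · rw [h, F.sn]
    · rw [h, mul_smul, F.sn, F.tn]
  obtain ⟨k, -, hk⟩ := H.conj_stab F.n1 h2 (sq_of_mem_fourGroup _ _ _ h1) h3 F.t1 F.tt F.tn
  exact ⟨k * g, by rw [← hk]; group⟩

/-- **The central element of order 3.** -/
theorem exists_central_three : Nat.card N = 16 ∧ Nat.card K = 180 ∧
    ∃ w : K, w ≠ 1 ∧ w * w * w = 1 ∧ (∀ g : K, g * w = w * g) ∧ ∀ x : N, x * w • x * (w • w • x) = 1 := by
  have : Fact (Nat.Prime 2) := ⟨Nat.prime_two⟩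
  obtain ⟨t, n, ht, htt, hn, htn⟩ := H.exists_good
  obtain ⟨s, F⟩ := H.exists_fours hn ht htt htn
  obtain ⟨hN, hK, -⟩ := H.numbers F
  refine ⟨hN, hK, ?_⟩
  obtain ⟨P, hP⟩ := H.exists_sylow F
  have h5 := H.card_sylow F
  set V := fourGroup t s F.tt F.ss F.comm.symm with hV
  have hV4 : Nat.card V = 4 := (isKleinFour_fourGroup F.tt F.ss F.comm.symm F.t1 F.s1 F.st.symm).card_four
  let ρ : K →* Equiv.Perm (Sylow 2 K) := MulAction.toPermHom K (Sylow 2 K)
  set Q := ρ.ker with hQ
  have hPS : (P : Set K) = (V : Set K) := congrArg (fun S : Subgroup K => (S : Set K)) hP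
  have hQn : ∀ x ∈ Q, ∀ R : Sylow 2 K, x ∈ normalizer (R : Set K) := by
    intro x hx R
    rw [← Sylow.smul_eq_iff_mem_normalizer]
    exact Equiv.congr_fun (hx : ρ x = 1) R
  -- `t ∉ Q`
  have htQ : t ∉ Q := by
    intro h
    have hconj : ∀ g : K, g * t * g⁻¹ ∈ Q := fun g => (inferInstance : Q.Normal).conj_mem t h g
    obtain ⟨g, hg⟩ := (H.vs F).c1
    have hs : s ∈ Q := by rw [← hg]; exact hconj g
    have hVQ : V ≤ Q := fourGroup_le _ _ _ h hs
    have h6 : ∀ R : Sylow 2 K, R = P := by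
      intro R
      have h7 : V ≤ normalizer (R : Set K) := fun x hx => hQn x (hVQ hx) R
      have h8 := R.2
      have h9 : IsPGroup 2 V := hP ▸ P.2
      have h10 := h9.inf_normalizer_sylow R
      rw [inf_eq_left.2 h7] at h10
      have h11 : (P : Subgroup K) ≤ R := by rw [hP, h10]; exact inf_le_right
      exact (Sylow.ext (P.3 R.2 h11))
    have h7 : Nat.card (Sylow 2 K) = 1 := by
      rw [Nat.card_eq_one_iff_unique]
      exact ⟨⟨fun a b => by rw [h6 a, h6 b]⟩, ⟨P⟩⟩
    omega
  -- `Q` has odd order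
  have hinv : ∀ x ∈ Q, x * x = 1 → x = 1 := by
    intro x hx hxx
    by_contra hx1
    obtain ⟨g, hg⟩ := H.conj_all F hx1 hxx
    apply htQ
    rw [← hg]
    exact (inferInstance : Q.Normal).conj_mem x hx g
  -- `Q` meets the stabilizer trivially
  have hQs : stabilizer K n ⊓ Q = ⊥ := by
    rw [eq_bot_iff]
    rintro x ⟨hx, hxQ⟩
    rw [mem_bot]
    have h1 : x * t * x⁻¹ * t⁻¹ ∈ Q := by
      rw [mul_assoc, mul_assoc, ← mul_assoc t]
      exact mul_mem hxQ ((inferInstance : Q.Normal).conj_mem _ (inv_mem hxQ) t)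
    have h2 : x * t * x⁻¹ ∈ V := (Subgroup.mem_normalizer_iff.1 (H.stab_le_normalizer F hx) t).1
      (left_mem_fourGroup _ _ _)
    have h3 : x * t * x⁻¹ * t⁻¹ ∈ V := mul_mem h2 (inv_mem (left_mem_fourGroup _ _ _))
    have h4 := hinv _ h1 (sq_of_mem_fourGroup _ _ _ h3)
    have h6 : x * t = t * x := by
      have : x * t * x⁻¹ = t := by rwa [mul_inv_eq_one] at h4
      exact mul_inv_eq_iff_eq_mul.1 this
    exact hinv x hxQ ((H.comm_stab F.n1 F.t1 F.tt F.tn hx).1 h6)
  have hQ3 : Nat.card Q = 3 := by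
    have h1 := Q.card_mul_index
    rw [hQ, index_ker, hK, ← hQ] at h1
    have h2 := VSyl.card_map_ker ρ (stabilizer K n)
    rw [H.stab_card F.n1, hQs, Subgroup.card_bot, one_mul] at h2
    have h3 : 12 ∣ Nat.card ρ.range := by
      rw [h2]
      exact card_dvd_of_le (MonoidHom.range_eq_map ρ ▸ Subgroup.map_mono le_top)
    have h4 : Nat.card ρ.range ∣ 120 := by
      have h6 := card_subgroup_dvd_card ρ.range
      rw [Nat.card_perm, h5] at h6
      exact h6
    have h6 : Nat.card Q ∣ 36 := by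
      rw [← H.card_normalizer F]
      refine card_dvd_of_le fun x hx => ?_
      have := hQn x hx P
      rwa [hPS] at this
    obtain ⟨j, hj⟩ := h3
    rw [hj] at h1 h4
    have hjle : 12 * j ≤ 120 := Nat.le_of_dvd (by norm_num) h4
    have hj10 : j ≤ 10 := by omega
    clear_value Q
    by_cases hj1 : j = 1
    · rw [hj1] at h1
      have : Nat.card Q = 15 := by omega
      rw [this] at h6
      exact absurd h6 (by decide)
    · interval_cases j <;> omega
  -- the element
  obtain ⟨w, hw⟩ := exists_prime_orderOf_dvd_card' 3 (dvd_of_eq hQ3.symm)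
  have hw3 : (w : K) * w * w = 1 := by
    have h1 := pow_orderOf_eq_one w
    rw [hw, pow_succ, pow_two] at h1
    exact congrArg Subtype.val h1
  have hw1 : (w : K) ≠ 1 := by
    intro h
    have : w = 1 := Subtype.ext h
    rw [this, orderOf_one] at hw
    omega
  have hall : ∀ x ∈ Q, x = 1 ∨ x = w ∨ x = w * w := by
    intro x hx
    have h1 : Nat.card (zpowers w) = Nat.card Q := by rw [Nat.card_zpowers, hw, hQ3]
    have h2 : zpowers w = ⊤ := Subgroup.eq_top_of_card_eq _ h1
    have h3 : (⟨x, hx⟩ : Q) ∈ zpowers w := by rw [h2]; exact mem_top _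
    obtain ⟨k, hk⟩ := (mem_zpowers_iff).1 h3
    rw [← zpow_mod_orderOf, hw] at hk
    have h4 : k % (3 : ℕ) = 0 ∨ k % (3 : ℕ) = 1 ∨ k % (3 : ℕ) = 2 := by omega
    rcases h4 with h4 | h4 | h4
    · rw [h4, zpow_zero] at hk
      exact Or.inl (congrArg Subtype.val hk).symm
    · rw [h4, zpow_one] at hk
      exact Or.inr (Or.inl (congrArg Subtype.val hk).symm)
    · rw [h4] at hk
      right; right
      have h6 : w ^ (2 : ℤ) = w * w := by
        rw [show (2 : ℤ) = 1 + 1 by norm_num, zpow_add, zpow_one]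
      rw [h6] at hk
      exact (congrArg Subtype.val hk).symm
  have hact : ∀ g : K, g * w * g⁻¹ = w ∨ g * w * g⁻¹ = (w : K) * w := by
    intro g
    rcases hall _ ((inferInstance : Q.Normal).conj_mem w w.2 g) with h | h | h
    · rw [mul_inv_eq_one, mul_eq_left] at h
      exact absurd h hw1
    · exact Or.inl h
    · exact Or.inr h
  have hww : (w : K) * w ≠ w := by
    intro h
    exact hw1 (mul_eq_left.1 h)
  have hsq : ∀ g : K, g * w * g⁻¹ = (w : K) * w → g * ((w : K) * w) * g⁻¹ = w := by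
    intro g hg
    calc g * ((w : K) * w) * g⁻¹ = (g * w * g⁻¹) * (g * w * g⁻¹) := by group
      _ = ((w : K) * w * w) * w := by rw [hg]; group
      _ = w := by rw [hw3, one_mul]
  -- `t` centralizes
  have hinvconj : ∀ g x : K, x * w * x⁻¹ = (w : K) * w → (g * x * g⁻¹) * w * (g * x * g⁻¹)⁻¹ = (w : K) * w := by
    intro g x hx
    have e1 : (g * x * g⁻¹) * w * (g * x * g⁻¹)⁻¹ = g * (x * (g⁻¹ * w * (g⁻¹)⁻¹) * x⁻¹) * g⁻¹ := by group
    have e2 : ∀ z : K, g * (g⁻¹ * z * (g⁻¹)⁻¹) * g⁻¹ = z := fun z => by group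
    rw [e1]
    rcases hact g⁻¹ with h | h
    · rw [h, hx]
      have h1 := e2 w
      rw [h] at h1
      calc g * ((w : K) * w) * g⁻¹ = (g * w * g⁻¹) * (g * w * g⁻¹) := by group
        _ = _ := by rw [h1]
    · rw [h, hsq x hx]
      have h1 := e2 w
      rw [h] at h1
      rcases hact g with h2 | h2
      · exfalso
        apply hww
        have h3 : g * ((w : K) * w) * g⁻¹ = (g * w * g⁻¹) * (g * w * g⁻¹) := by group
        rw [h2, h1] at h3
        exact h3.symm
      · exact h2
  have htw : t * w * t⁻¹ = w := by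
    rcases hact t with h | h
    · exact h
    exfalso
    obtain ⟨g1, hg1⟩ := (H.vs F).c1
    obtain ⟨g2, hg2⟩ := (H.vs F).c2
    have h1 := hinvconj g1 t h
    have h2 := hinvconj g2 t h
    rw [hg1] at h1
    rw [hg2] at h2
    apply hww
    rw [← h2]
    calc t * s * w * (t * s)⁻¹ = t * (s * w * s⁻¹) * t⁻¹ := by group
      _ = w := by rw [h1, hsq t h]
  have hsw : s * w * s⁻¹ = w := by
    rcases hact s with h | h
    · exact h
    exfalso
    obtain ⟨g1, hg1⟩ := (H.vs F).c1
    have h1 := hinvconj g1⁻¹ s h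
    rw [← hg1] at h1
    have h3 : g1⁻¹ * (g1 * t * g1⁻¹) * g1⁻¹⁻¹ = t := by group
    rw [h3, htw] at h1
    exact hww h1.symm
  have hcen : centralizer ({(w : K)} : Set K) = ⊤ := by
    by_contra hne
    have hVC : V ≤ centralizer {(w : K)} := fourGroup_le _ _ _
      (mem_centralizer_singleton_iff.2 (mul_inv_eq_iff_eq_mul.1 htw))
      (mem_centralizer_singleton_iff.2 (mul_inv_eq_iff_eq_mul.1 hsw))
    have hmem : ∀ g : K, g ∈ centralizer ({(w : K)} : Set K) ↔ g * w * g⁻¹ = w := by
      intro g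
      rw [mem_centralizer_singleton_iff, mul_inv_eq_iff_eq_mul]
    obtain ⟨a, ha⟩ : ∃ a, a ∉ centralizer ({(w : K)} : Set K) := by
      by_contra hcon
      push Not at hcon
      exact hne (eq_top_iff.2 fun x _ => hcon x)
    have haw : a * w * a⁻¹ = (w : K) * w := by
      rcases hact a with h | h
      · exact absurd ((hmem a).2 h) ha
      · exact h
    have hidx : (centralizer ({(w : K)} : Set K)).index = 2 := by
      rw [index_eq_two_iff]
      refine ⟨a, fun b => ?_⟩
      rcases hact b with h | h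
      · right
        refine ⟨(hmem b).2 h, fun h1 => ?_⟩
        rw [hmem] at h1
        apply hww
        calc (w : K) * w = b * ((w : K) * w) * b⁻¹ := by
              rw [show b * ((w : K) * w) * b⁻¹ = (b * w * b⁻¹) * (b * w * b⁻¹) by group, h]
          _ = b * (a * w * a⁻¹) * b⁻¹ := by rw [haw]
          _ = b * a * w * (b * a)⁻¹ := by group
          _ = w := h1
      · left
        refine ⟨(hmem _).2 ?_, fun h1 => ?_⟩
        · calc b * a * w * (b * a)⁻¹ = b * (a * w * a⁻¹) * b⁻¹ := by group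
            _ = w := by rw [haw, hsq b h]
        · rw [hmem, h] at h1
          exact hww h1
    have h1 := (centralizer ({(w : K)} : Set K)).card_mul_index
    rw [hidx, hK] at h1
    have h2 := card_dvd_of_le hVC
    rw [hV4] at h2
    omega
  have hcomm : ∀ g : K, g * w = w * g := by
    intro g
    have : g ∈ centralizer ({(w : K)} : Set K) := by rw [hcen]; exact mem_top g
    exact mem_centralizer_singleton_iff.1 this
  refine ⟨w, hw1, hw3, hcomm, fun x => ?_⟩
  by_contra hx
  have hfix : (w : K) • (x * (w : K) • x * ((w : K) • (w : K) • x)) = x * (w : K) • x * ((w : K) • (w : K) • x) := by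
    rw [smul_mul', smul_mul', ← mul_smul (w : K) w ((w : K) • x), ← mul_smul ((w : K) * w) w x, hw3, one_smul,
      mul_comm, ← mul_assoc]
  apply hw1
  apply H.ff
  intro y
  by_cases hy : y = 1
  · rw [hy, smul_one]
  · obtain ⟨k, hk⟩ := H.tr _ y hx hy
    rw [← hk, ← mul_smul, ← hcomm, mul_smul, hfix]

end Hyp

end Cfsg.Agent.H310.A4Act
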