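import Cfsg.Agent.H310.A4Two

/-!
# Groups transitive on the nonzero vectors with stabilizers `A₄`: characteristic 2
-/

set_option autoImplicit false

namespace Cfsg.Agent.H310.A4Act

open MulAction Subgroup Cfsg.Agent.TwoFusion.DihedralFusion

namespace Hyp

universe u

variable {K : Type u} {N : Type*} [Group K] [CommGroup N] [MulDistribMulAction K N]
variable [Finite K] [Finite N] (H : Hyp K N 2)
include H

theorem sq_one (x : N) : x * x = 1 := by rw [← pow_two]; exact H.pow x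

/-- an involution fixes at least the square root of the number of points -/
theorem sq_bound (M : Subgroup N) {t : K} (tt : t * t = 1) (hM : ∀ x ∈ M, t • x ∈ M) :
    Nat.card M ≤ Nat.card ↥(M ⊓ fx N (zpowers t)) ^ 2 := by
  let ψ : M →* N :=
    { toFun := fun x => x.1 * t • x.1
      map_one' := by simp
      map_mul' := fun x y => by
        rw [Subgroup.coe_mul, smul_mul', mul_mul_mul_comm] }
  have h1 := ψ.ker.card_mul_index
  rw [index_ker] at h1
  have h2 : ψ.range ≤ M ⊓ fx N (zpowers t) := by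
    rintro _ ⟨x, rfl⟩
    refine ⟨mul_mem x.2 (hM x.1 x.2), mem_fx_zpowers.2 ?_⟩
    change t • (x.1 * t • x.1) = x.1 * t • x.1
    rw [smul_mul', ← mul_smul, tt, one_smul, mul_comm]
  have h3 : ψ.ker.map M.subtype ≤ M ⊓ fx N (zpowers t) := by
    rintro _ ⟨x, hx, rfl⟩
    refine ⟨x.2, mem_fx_zpowers.2 ?_⟩
    have h4 : x.1 * t • x.1 = 1 := hx
    have h5 : x.1 * (x.1 * t • x.1) = x.1 * 1 := by rw [h4]
    rw [← mul_assoc, H.sq_one, one_mul, mul_one] at h5
    exact h5
  have h4 : Nat.card ψ.ker ≤ Nat.card ↥(M ⊓ fx N (zpowers t)) := by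
    have h5 := Nat.card_congr (ψ.ker.equivMapOfInjective M.subtype M.subtype_injective).toEquiv
    rw [h5]
    exact card_le_of_le h3
  have h5 : Nat.card ψ.range ≤ Nat.card ↥(M ⊓ fx N (zpowers t)) := card_le_of_le h2
  rw [← h1, pow_two]
  exact Nat.mul_le_mul h4 h5

theorem vs {t s : K} {n : N} (F : Fours t s n) : VSyl.VS t s := by
  refine ⟨F.t1, F.tt, F.s1, F.ss, F.st.symm, F.comm.symm, ?_, ?_, ?_⟩
  · rw [H.card_K]
    obtain ⟨d, hd⟩ := H.card_pow (⊤ : Subgroup N)
    rw [Nat.card_congr (Subgroup.topEquiv : (⊤ : Subgroup N) ≃* N).toEquiv] at hd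
    have hd0 : d ≠ 0 := by
      rintro rfl
      rw [pow_zero, Nat.card_eq_one_iff_unique] at hd
      obtain ⟨hd, -⟩ := hd
      exact F.n1 (hd.elim n 1)
    rw [hd]
    obtain ⟨k, rfl⟩ := Nat.exists_eq_succ_of_ne_zero hd0
    rw [Nat.succ_eq_add_one, pow_succ]
    have := Nat.one_le_two_pow (n := k)
    omega
  · obtain ⟨g, -, hg⟩ := H.conj_stab F.n1 F.t1 F.tt F.tn F.s1 F.ss F.sn
    exact ⟨g, hg⟩
  · have h1 : t * s ≠ 1 := by
      intro h
      apply F.st
      have h5 : t * (t * s) = t * 1 := by rw [h]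
      rwa [← mul_assoc, F.tt, one_mul, mul_one] at h5
    have h2 : t * s * (t * s) = 1 := by
      calc t * s * (t * s) = t * (s * t) * s := by group
        _ = (t * t) * (s * s) := by rw [F.comm]; group
        _ = 1 := by rw [F.tt, F.ss, one_mul]
    obtain ⟨g, -, hg⟩ := H.conj_stab F.n1 F.t1 F.tt F.tn h1 h2 (by rw [mul_smul, F.sn, F.tn])
    exact ⟨g, hg⟩

omit H [Finite K] [Finite N] in
theorem _root_.Cfsg.Agent.H310.A4Act.Fours.move {t s : K} {n m : N} (F : Fours t s n) (hm : m ≠ 1) (h1 : t • m = m)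
    (h2 : s • m = m) : Fours t s m := ⟨hm, F.t1, F.tt, h1, F.s1, F.ss, h2, F.st, F.comm⟩

theorem mem_four_iff {t s : K} {n : N} (F : Fours t s n) {y : K} (hy : y * y = 1) (hyn : y • n = n) :
    y = 1 ∨ y = t ∨ y = s ∨ y = t * s :=
  (H.mem_V F).1 ((H.mem_four F.n1 F.t1 F.tt F.tn).2 ⟨hy, hyn⟩)

/-- an element centralizing `t` that moves `n` inside the fixed points of `V` -/
theorem exists_move {t s : K} {n m : N} (F : Fours t s n) (hm : m ≠ 1) (h1 : t • m = m) (h2 : s • m = m) :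
    ∃ g : K, g • n = m ∧ g * t * g⁻¹ = t ∧ g * s * g⁻¹ = s := by
  obtain ⟨g, hg, hgm⟩ := H.conj_good F.t1 F.tt F.n1 F.tn F.t1 F.tt hm h1
  refine ⟨g, hgm, hg, ?_⟩
  have V := H.vs F
  have F' := F.move hm h1 h2
  have hsq : g * s * g⁻¹ * (g * s * g⁻¹) = 1 := by
    calc g * s * g⁻¹ * (g * s * g⁻¹) = g * (s * s) * g⁻¹ := by group
      _ = 1 := by rw [F.ss, mul_one, mul_inv_cancel]
  have hfix : (g * s * g⁻¹) • m = m := by
    rw [← hgm, mul_smul, mul_smul, inv_smul_smul, F.sn]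
  apply V.toVS0.fix hg
  rcases H.mem_four_iff F' hsq hfix with h | h | h | h
  · rw [mul_inv_eq_one, mul_eq_left] at h
    exact absurd h F.s1
  · exfalso
    apply F.st
    have h8 : g * s * g⁻¹ = g * t * g⁻¹ := by rw [h, hg]
    simpa using h8
  · exact Or.inl h
  · exact Or.inr h

/-- the order of the centralizer of `V` -/
theorem card_centralizer_four {t s : K} {n : N} (F : Fours t s n) :
    Nat.card (centralizer ({t, s} : Set K)) = (Nat.card {x : N // t • x = x ∧ s • x = x} - 1) * 4 := by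
  have h0 : Nat.card {x : N // t • x = x ∧ s • x = x} = Nat.card ↥(fx N (zpowers t) ⊓ fx N (zpowers s)) :=
    Nat.card_congr (Equiv.subtypeEquivRight fun x => by rw [Subgroup.mem_inf, mem_fx_zpowers, mem_fx_zpowers])
  have h1 := card_eq (centralizer ({t, s} : Set K)) {m : N | m ∈ fx N (zpowers t) ⊓ fx N (zpowers s) ∧ m ≠ 1} n (by
    ext m
    constructor
    · rintro ⟨⟨k, hk⟩, rfl⟩
      change k • n ∈ _
      rw [VSyl.mem_centralizer_pair] at hk
      refine ⟨⟨mem_fx_zpowers.2 ?_, mem_fx_zpowers.2 ?_⟩, fun h => F.n1 ?_⟩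
      · rw [← mul_smul, ← hk.1, mul_smul, F.tn]
      · rw [← mul_smul, ← hk.2, mul_smul, F.sn]
      · rwa [smul_eq_iff_eq_inv_smul, smul_one] at h
    · rintro ⟨⟨hm, hm'⟩, hm1⟩
      obtain ⟨g, h2, h3, h4⟩ := H.exists_move F hm1 (mem_fx_zpowers.1 hm) (mem_fx_zpowers.1 hm')
      exact ⟨⟨g, VSyl.mem_centralizer_pair.2 ⟨mul_inv_eq_iff_eq_mul.1 h3, mul_inv_eq_iff_eq_mul.1 h4⟩⟩, h2⟩)
  have h2 : centralizer ({t, s} : Set K) ⊓ stabilizer K n = centralizer ({t} : Set K) ⊓ stabilizer K n := by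
    apply le_antisymm
    · rintro x ⟨hx, hx'⟩
      exact ⟨mem_centralizer_singleton_iff.2 (VSyl.mem_centralizer_pair.1 hx).1, hx'⟩
    · intro x hx
      refine ⟨VSyl.mem_centralizer_pair.2 ?_, hx.2⟩
      rcases (H.mem_V F).1 hx with rfl | rfl | rfl | rfl
      · simp
      · exact ⟨rfl, F.comm.symm⟩
      · exact ⟨F.comm, rfl⟩
      · constructor
        · rw [mul_assoc, F.comm]
        · rw [← mul_assoc, F.comm]
  rw [H.ncard_ne, h2, H.card_four F.n1 F.t1 F.tt F.tn] at h1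
  rw [h1, h0]

/-- **The numbers.** -/
theorem numbers {t s : K} {n : N} (F : Fours t s n) : Nat.card N = 16 ∧ Nat.card K = 180 ∧
    Nat.card {x : N // t • x = x ∧ s • x = x} = 4 := by
  obtain ⟨d, hd⟩ := H.card_sub_pow (fun _ => True) ⊤ (by simp)
  have hd' : Nat.card N = 2 ^ d := by
    rw [← hd]
    exact (Nat.card_congr (Equiv.subtypeUnivEquiv fun x => trivial)).symm
  obtain ⟨e, he⟩ := H.card_sub_pow (fun x => t • x = x) (fx N (zpowers t)) (fun _ => mem_fx_zpowers)
  obtain ⟨c, hc⟩ := H.card_sub_pow (fun x => t • x = x ∧ s • x = x) (fx N (zpowers t) ⊓ fx N (zpowers s))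
    (fun x => by rw [Subgroup.mem_inf, mem_fx_zpowers, mem_fx_zpowers])
  have hc1 : 1 ≤ c := by
    by_contra h2
    have : c = 0 := by omega
    rw [this, pow_zero, Nat.card_eq_one_iff_unique] at hc
    obtain ⟨hc, -⟩ := hc
    have := hc.elim ⟨n, F.tn, F.sn⟩ ⟨1, smul_one t, smul_one s⟩
    exact F.n1 (congrArg Subtype.val this)
  have hce : 2 ^ c ≤ 2 ^ e := by
    rw [← hc, ← he]
    exact Nat.card_le_card_of_injective (fun x => (⟨x.1, x.2.1⟩ : {x : N // t • x = x}))
      (fun x y h => Subtype.ext (by have h2 := congrArg Subtype.val h; exact h2))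
  have hce' := (Nat.pow_le_pow_iff_right (a := 2) (by norm_num)).1 hce
  have hed : e < d := by
    rcases lt_or_ge e d with h | h
    · exact h
    exfalso
    have h3 : Nat.card N ≤ Nat.card {x : N // t • x = x} := by
      rw [hd', he]
      exact Nat.pow_le_pow_right (by omega) h
    have h4 : fx N (zpowers t) = ⊤ := by
      apply Subgroup.eq_top_of_le_card
      rw [H.card_fx]
      exact h3
    apply F.t1
    apply H.ff
    intro x
    have : x ∈ fx N (zpowers t) := by rw [h4]; exact mem_top x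
    exact mem_fx_zpowers.1 this
  have hde : d ≤ 2 * e := by
    have h1 := H.sq_bound ⊤ F.tt (fun x _ => mem_top _)
    rw [top_inf_eq, H.card_fx, he, Nat.card_congr (Subgroup.topEquiv : (⊤ : Subgroup N) ≃* N).toEquiv, hd',
      ← pow_mul, Nat.pow_le_pow_iff_right (by norm_num)] at h1
    omega
  have hec : e ≤ 2 * c := by
    have h1 := H.sq_bound (fx N (zpowers t)) F.ss (by
      intro x hx
      rw [mem_fx_zpowers] at hx ⊢
      rw [← mul_smul, ← F.comm, mul_smul, hx])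
    have h0 : Nat.card {x : N // t • x = x ∧ s • x = x} = Nat.card ↥(fx N (zpowers t) ⊓ fx N (zpowers s)) :=
      Nat.card_congr (Equiv.subtypeEquivRight fun x => by rw [Subgroup.mem_inf, mem_fx_zpowers, mem_fx_zpowers])
    rw [H.card_fx, he, ← h0, hc, ← pow_mul, Nat.pow_le_pow_iff_right (by norm_num)] at h1
    omega
  have hK := H.card_K
  have hCt := H.card_centralizer' F.n1 F.t1 F.tt F.tn
  have hCV := H.card_centralizer_four F
  rw [hd'] at hK
  rw [he] at hCt
  rw [hc] at hCV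
  have h1 : (2 ^ e - 1) ∣ 3 * (2 ^ d - 1) := by
    have h2 := card_subgroup_dvd_card (centralizer ({t} : Set K))
    rw [hCt, hK] at h2
    have h3 : (2 ^ d - 1) * 12 = 3 * (2 ^ d - 1) * 4 := by ring
    rw [h3] at h2
    exact Nat.dvd_of_mul_dvd_mul_right (by norm_num) h2
  have h2 : (2 ^ c - 1) ∣ (2 ^ e - 1) := by
    have h3 : centralizer ({t, s} : Set K) ≤ centralizer {t} := by
      intro x hx
      exact mem_centralizer_singleton_iff.2 (VSyl.mem_centralizer_pair.1 hx).1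
    have h4 := card_dvd_of_le h3
    rw [hCt, hCV] at h4
    exact Nat.dvd_of_mul_dvd_mul_right (by norm_num) h4
  obtain ⟨u, hu, h⟩ := VSyl.main (H.vs F)
  rw [hK, hCt, hCV] at h
  obtain ⟨rfl, rfl, rfl⟩ := arith_two hc1 hce' hec hed hde h1 h2 hu (by
    rcases h with h | h
    · left
      apply Nat.eq_of_mul_eq_mul_right (show 0 < 64 by norm_num)
      calc 3 * (2 ^ d - 1) * (2 ^ c - 1) ^ 2 * u ^ 2 * 64 = (2 ^ d - 1) * 12 * ((2 ^ c - 1) * 4) ^ 2 * u ^ 2 := by ring
        _ = _ := h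
        _ = _ := by ring
    · right
      apply Nat.eq_of_mul_eq_mul_right (show 0 < 64 by norm_num)
      calc (3 * (2 ^ d - 1) * (2 ^ c - 1) ^ 2 * u ^ 2 + 6 * u * (2 ^ e - 1) ^ 3) * 64 =
            (2 ^ d - 1) * 12 * ((2 ^ c - 1) * 4) ^ 2 * u ^ 2 + 6 * u * ((2 ^ e - 1) * 4) ^ 3 := by ring
        _ = _ := h
        _ = _ := by ring)
  exact ⟨by rw [hd']; norm_num, by rw [hK]; norm_num, by rw [hc]; norm_num⟩

end Hyp

end Cfsg.Agent.H310.A4Act
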