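import Cfsg.Agent.S0088
import Mathlib

/-!
# Perfect central extensions by 2-groups when the Sylow 2-subgroup is elementary abelian of order 8

If `L` is perfect, `Z ≤ Z(L)` is a 2-group and the Sylow 2-subgroups `S` of `L/Z` are elementary abelian of order 8
with `N(S)` transitive on `S ∖ {1}`, then `Z = 1`.
-/

set_option autoImplicit false

namespace Cfsg.Agent.H310.CoverEight

open Subgroup

/-- The case `|ker σ| = 2`. -/
theorem core {L : Type*} {X : Type*} [Group L] [Finite L] [Group X] [Finite X] (σ : L →* X)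
    (hσ : Function.Surjective σ) (hc : σ.ker ≤ Subgroup.center L) (hk2 : Nat.card σ.ker = 2)
    (hL : commutator L = ⊤) (S : Sylow 2 X) (hS8 : Nat.card (S : Subgroup X) = 8)
    (hS2 : ∀ x ∈ (S : Subgroup X), x * x = 1)
    (htr : ∀ x ∈ (S : Subgroup X), ∀ y ∈ (S : Subgroup X), x ≠ 1 → y ≠ 1 →
      ∃ n ∈ Subgroup.normalizer ((S : Subgroup X) : Set X), n * x * n⁻¹ = y) : False := by
  classical
  have h2 : Fact (Nat.Prime 2) := ⟨Nat.prime_two⟩
  have hcen : ∀ k : L, σ k = 1 → ∀ y : L, y * k = k * y := by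
    intro k hk y
    exact Subgroup.mem_center_iff.1 (hc (MonoidHom.mem_ker.2 hk)) y
  -- the nontrivial element of the kernel
  obtain ⟨z, hz1, hz⟩ : ∃ z : L, z ≠ 1 ∧ ∀ k : L, σ k = 1 ↔ (k = 1 ∨ k = z) := by
    obtain ⟨⟨z, hzk⟩, hz1, hzu⟩ := (Nat.card_eq_two_iff' (1 : σ.ker)).1 hk2
    refine ⟨z, fun h => hz1 (Subtype.ext h), fun k => ⟨fun hk => ?_, ?_⟩⟩
    · by_cases hk1 : k = 1
      · exact Or.inl hk1
      · right
        have := hzu ⟨k, MonoidHom.mem_ker.2 hk⟩ (fun h => hk1 (congrArg Subtype.val h))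
        exact congrArg Subtype.val this
    · rintro (rfl | rfl)
      · exact map_one σ
      · exact MonoidHom.mem_ker.1 hzk
  have hσz : σ z = 1 := (hz z).2 (Or.inr rfl)
  have hzz : z * z = 1 := by
    have h3 : σ (z * z) = 1 := by rw [map_mul, hσz, one_mul]
    rcases (hz _).1 h3 with h | h
    · exact h
    · exact absurd (by simpa using h) hz1
  have hzc : ∀ y : L, y * z = z * y := hcen z hσz
  -- commutativity of `S`
  have hScomm : ∀ x ∈ (S : Subgroup X), ∀ y ∈ (S : Subgroup X), x * y = y * x := by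
    intro x hx y hy
    have h3 := hS2 x hx
    have h4 := hS2 y hy
    have h5 := hS2 (x * y) ((S : Subgroup X).mul_mem hx hy)
    have hxi : x⁻¹ = x := inv_eq_of_mul_eq_one_left h3
    have hyi : y⁻¹ = y := inv_eq_of_mul_eq_one_left h4
    have h6 : (x * y)⁻¹ = x * y := inv_eq_of_mul_eq_one_left h5
    rw [mul_inv_rev, hxi, hyi] at h6
    exact h6.symm
  set P₀ : Subgroup L := (S : Subgroup X).comap σ with hP₀
  have hmem : ∀ x : L, x ∈ P₀ ↔ σ x ∈ (S : Subgroup X) := fun x => Subgroup.mem_comap
  have hkP : ∀ k : L, σ k = 1 → k ∈ P₀ := fun k hk => by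
    rw [hmem, hk]; exact (S : Subgroup X).one_mem
  have hcomm : ∀ x ∈ P₀, ∀ y ∈ P₀, x * y = y * x ∨ x * y = z * (y * x) := by
    intro x hx y hy
    have h3 : σ ((x * y) * (y * x)⁻¹) = 1 := by
      rw [map_mul, map_inv, map_mul, map_mul, hScomm _ ((hmem x).1 hx) _ ((hmem y).1 hy), mul_inv_cancel]
    rcases (hz _).1 h3 with h | h
    · left; exact mul_inv_eq_one.1 h
    · right; exact mul_inv_eq_iff_eq_mul.1 h
  -- `P₀` is commutative
  have hab : ∀ x ∈ P₀, ∀ y ∈ P₀, x * y = y * x := by
    by_contra hne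
    push Not at hne
    obtain ⟨a, ha, b, hb, hab⟩ := hne
    have hab' : a * b = z * (b * a) := (hcomm a ha b hb).resolve_left hab
    have hσa : σ a ≠ 1 := fun h => hab (hcen a h b).symm
    have hσb : σ b ≠ 1 := fun h => hab (hcen b h a)
    -- no noncentral element
    have hnc : ∀ x ∈ P₀, σ x ≠ 1 → ∃ y ∈ P₀, x * y ≠ y * x := by
      intro x hx hx1
      obtain ⟨n', hn', hn1⟩ := htr _ ((hmem a).1 ha) _ ((hmem x).1 hx) hσa hx1
      obtain ⟨n, rfl⟩ := hσ n'
      have hk : σ (x * (n * a * n⁻¹)⁻¹) = 1 := by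
        rw [map_mul, map_inv, map_mul, map_mul, map_inv, hn1, mul_inv_cancel]
      set k := x * (n * a * n⁻¹)⁻¹ with hkdef
      have hxk : x = k * (n * a * n⁻¹) := by rw [hkdef]; group
      refine ⟨n * b * n⁻¹, ?_, ?_⟩
      · rw [hmem, map_mul, map_mul, map_inv]
        exact (Subgroup.mem_normalizer_iff.1 hn' _).1 ((hmem b).1 hb)
      · intro h
        apply hab
        rw [hxk] at h
        have h3 : k * (n * (a * b) * n⁻¹) = k * (n * (b * a) * n⁻¹) := by
          calc k * (n * (a * b) * n⁻¹) = k * (n * a * n⁻¹) * (n * b * n⁻¹) := by group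
            _ = n * b * n⁻¹ * (k * (n * a * n⁻¹)) := h
            _ = (n * b * n⁻¹ * k) * (n * a * n⁻¹) := by group
            _ = (k * (n * b * n⁻¹)) * (n * a * n⁻¹) := by rw [hcen k hk]
            _ = k * (n * (b * a) * n⁻¹) := by group
        have h4 := mul_left_cancel h3
        have h5 := mul_right_cancel h4
        exact mul_left_cancel h5
    -- pick a third element
    obtain ⟨c, hcP, hc3⟩ : ∃ c ∈ P₀, σ c ≠ 1 ∧ σ c ≠ σ a ∧ σ c ≠ σ b ∧ σ c ≠ σ a * σ b := by
      by_contra hno
      push Not at hno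
      have hsub : ((S : Subgroup X) : Set X) ⊆ ({1, σ a, σ b, σ a * σ b} : Set X) := by
        intro s hs
        obtain ⟨c, rfl⟩ := hσ s
        have h3 := hno c ((hmem c).2 hs)
        by_cases h4 : σ c = 1
        · simp [h4]
        by_cases h5 : σ c = σ a
        · simp [h5]
        by_cases h6 : σ c = σ b
        · simp [h6]
        · have := h3 h4 h5 h6
          simp [this]
      have h3 : Nat.card (S : Subgroup X) ≤ 4 := by
        rw [← SetLike.coe_sort_coe, Nat.card_coe_set_eq]
        refine (Set.ncard_le_ncard hsub (Set.toFinite _)).trans ?_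
        refine (Set.ncard_insert_le _ _).trans ?_
        refine (Nat.add_le_add_right (Set.ncard_insert_le _ _) 1).trans ?_
        refine (Nat.add_le_add_right (Nat.add_le_add_right (Set.ncard_insert_le _ _) 1) 1).trans ?_
        rw [Set.ncard_singleton]
      omega
    -- adjust it to commute with `a` and `b`
    have haa : ∀ {u v w : L}, u * v = z * (v * u) → u * w = z * (w * u) → u * (v * w) = (v * w) * u := by
      intro u v w h3 h4
      calc u * (v * w) = (u * v) * w := by group
        _ = z * (v * u) * w := by rw [h3]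
        _ = z * (v * (u * w)) := by group
        _ = z * (v * (z * (w * u))) := by rw [h4]
        _ = z * ((v * z) * (w * u)) := by group
        _ = z * ((z * v) * (w * u)) := by rw [hzc v]
        _ = (z * z) * ((v * w) * u) := by group
        _ = (v * w) * u := by rw [hzz, one_mul]
    have hsymm : ∀ {u v : L}, u * v = z * (v * u) → v * u = z * (u * v) := by
      intro u v h3
      rw [h3, ← mul_assoc, hzz, one_mul]
    have hcc : ∀ {u v w : L}, u * v = v * u → u * w = w * u → u * (v * w) = (v * w) * u := by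
      intro u v w h3 h4
      rw [← mul_assoc, h3, mul_assoc, h4, ← mul_assoc]
    obtain ⟨w, hwP, hwa, hwb, hw1, hw2, hw3, hw4⟩ : ∃ w ∈ P₀, w * a = a * w ∧ w * b = b * w ∧
        σ w ≠ 1 ∧ σ w ≠ σ a ∧ σ w ≠ σ b ∧ σ w ≠ σ a * σ b := by
      obtain ⟨c1, c2, c3, c4⟩ := hc3
      have haS := (hmem a).1 ha
      have hbS := (hmem b).1 hb
      have hcS := (hmem c).1 hcP
      have haa1 := hS2 _ haS
      have hbb1 := hS2 _ hbS
      have hbaS := hScomm _ haS _ hbS
      -- adjust for `a`
      obtain ⟨d, hdP, hda, d1, d2, d3, d4⟩ : ∃ d ∈ P₀, a * d = d * a ∧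
          σ d ≠ 1 ∧ σ d ≠ σ a ∧ σ d ≠ σ b ∧ σ d ≠ σ a * σ b := by
        rcases hcomm a ha c hcP with h3 | h3
        · exact ⟨c, hcP, h3, c1, c2, c3, c4⟩
        · refine ⟨c * b, P₀.mul_mem hcP hb, haa h3 hab', ?_, ?_, ?_, ?_⟩
          · rw [map_mul]; intro h
            apply c3
            calc σ c = (σ c * σ b) * σ b := by rw [mul_assoc, hbb1, mul_one]
              _ = σ b := by rw [h, one_mul]
          · rw [map_mul]; intro h
            apply c4
            calc σ c = (σ c * σ b) * σ b := by rw [mul_assoc, hbb1, mul_one]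
              _ = σ a * σ b := by rw [h]
          · rw [map_mul]; intro h
            apply c1
            calc σ c = (σ c * σ b) * σ b := by rw [mul_assoc, hbb1, mul_one]
              _ = 1 := by rw [h, hbb1]
          · rw [map_mul]; intro h
            apply c2
            calc σ c = (σ c * σ b) * σ b := by rw [mul_assoc, hbb1, mul_one]
              _ = σ a := by rw [h, mul_assoc, hbb1, mul_one]
      rcases hcomm b hb d hdP with h3 | h3
      · exact ⟨d, hdP, hda.symm, h3.symm, d1, d2, d3, d4⟩
      · refine ⟨d * a, P₀.mul_mem hdP ha, (hcc hda rfl).symm, (haa h3 (hsymm hab')).symm, ?_, ?_, ?_, ?_⟩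
        · rw [map_mul]; intro h
          apply d2
          calc σ d = (σ d * σ a) * σ a := by rw [mul_assoc, haa1, mul_one]
            _ = σ a := by rw [h, one_mul]
        · rw [map_mul]; intro h
          apply d1
          calc σ d = (σ d * σ a) * σ a := by rw [mul_assoc, haa1, mul_one]
            _ = 1 := by rw [h, haa1]
        · rw [map_mul]; intro h
          apply d4
          calc σ d = (σ d * σ a) * σ a := by rw [mul_assoc, haa1, mul_one]
            _ = σ a * σ b := by rw [h, hbaS]
        · rw [map_mul]; intro h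
          apply d3
          calc σ d = (σ d * σ a) * σ a := by rw [mul_assoc, haa1, mul_one]
            _ = σ b := by rw [h, hbaS, mul_assoc, haa1, mul_one]
    -- the centraliser of `w`
    obtain ⟨y, hyP, hy⟩ := hnc w hwP hw1
    apply hy
    let C : Subgroup L := P₀ ⊓ Subgroup.centralizer {w}
    have hCm : ∀ {x : L}, x ∈ C ↔ x ∈ P₀ ∧ x * w = w * x := by
      intro x
      rw [Subgroup.mem_inf, Subgroup.mem_centralizer_singleton_iff]
    have hCa : a ∈ C := hCm.2 ⟨ha, hwa.symm⟩
    have hCb : b ∈ C := hCm.2 ⟨hb, hwb.symm⟩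
    have hCw : w ∈ C := hCm.2 ⟨hwP, rfl⟩
    let D : Subgroup X := C.map σ
    have hDS : D ≤ (S : Subgroup X) := by
      rintro _ ⟨x, hx, rfl⟩
      exact (hmem x).1 (hCm.1 hx).1
    have hDcard : Nat.card D ∣ 8 := by
      rw [← hS8]; exact Subgroup.card_dvd_of_le hDS
    have hsub : ({1, σ a, σ b, σ a * σ b, σ w} : Set X) ⊆ (D : Set X) := by
      intro s hs
      simp only [Set.mem_insert_iff, Set.mem_singleton_iff] at hs
      have h3 : σ a ∈ D := ⟨a, hCa, rfl⟩
      have h4 : σ b ∈ D := ⟨b, hCb, rfl⟩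
      rcases hs with rfl | rfl | rfl | rfl | rfl
      · exact D.one_mem
      · exact h3
      · exact h4
      · exact D.mul_mem h3 h4
      · exact ⟨w, hCw, rfl⟩
    have hba : σ a ≠ σ b := by
      intro h
      have h3 : σ (b * a⁻¹) = 1 := by rw [map_mul, map_inv, h, mul_inv_cancel]
      apply hab
      have h4 : b = (b * a⁻¹) * a := by group
      rw [h4]
      calc a * (b * a⁻¹ * a) = (a * (b * a⁻¹)) * a := by group
        _ = ((b * a⁻¹) * a) * a := by rw [hcen _ h3 a]
        _ = b * a⁻¹ * a * a := by group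
    have h5 : (5 : ℕ) ≤ Nat.card D := by
      rw [← SetLike.coe_sort_coe, Nat.card_coe_set_eq]
      refine le_trans ?_ (Set.ncard_le_ncard hsub (Set.toFinite _))
      rw [Set.ncard_insert_of_notMem, Set.ncard_insert_of_notMem, Set.ncard_insert_of_notMem,
        Set.ncard_insert_of_notMem, Set.ncard_singleton]
      · simp only [Set.mem_singleton_iff]; exact fun h => hw4 h.symm
      · simp only [Set.mem_insert_iff, Set.mem_singleton_iff]
        rintro (h | h)
        · apply hσa
          have : σ a * σ b = 1 * σ b := by rw [← h, one_mul]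
          exact mul_right_cancel this
        · exact hw3 h.symm
      · simp only [Set.mem_insert_iff, Set.mem_singleton_iff]
        rintro (h | h | h)
        · exact hba h
        · apply hσb
          have : σ a * σ b = σ a * 1 := by rw [← h, mul_one]
          exact mul_left_cancel this
        · exact hw2 h.symm
      · simp only [Set.mem_insert_iff, Set.mem_singleton_iff]
        rintro (h | h | h | h)
        · exact hσa h.symm
        · exact hσb h.symm
        · apply hba
          have h6 := hS2 _ ((hmem a).1 ha)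
          calc σ a = σ a * (σ a * σ b) := by rw [← h, mul_one]
            _ = σ b := by rw [← mul_assoc, h6, one_mul]
        · exact hw1 h.symm
    have h8 : Nat.card D = 8 := by
      obtain ⟨k, hk⟩ := hDcard
      have hk0 : k ≠ 0 := by rintro rfl; omega
      have : k = 1 := by
        by_contra hk1
        have : 2 ≤ k := by omega
        nlinarith
      rw [this, mul_one] at hk
      exact hk.symm
    have hDS' : D = (S : Subgroup X) := by
      apply Subgroup.eq_of_le_of_card_ge hDS
      rw [h8, hS8]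
    have hyD : σ y ∈ D := by rw [hDS']; exact (hmem y).1 hyP
    obtain ⟨x, hx, hxy⟩ := hyD
    have h9 : σ (y * x⁻¹) = 1 := by rw [map_mul, map_inv, hxy, mul_inv_cancel]
    have h10 : y = (y * x⁻¹) * x := by group
    rw [h10]
    have h11 := (hCm.1 hx).2
    calc w * (y * x⁻¹ * x) = (w * (y * x⁻¹)) * x := by group
      _ = ((y * x⁻¹) * w) * x := by rw [hcen _ h9 w]
      _ = (y * x⁻¹) * (w * x) := by group
      _ = (y * x⁻¹) * (x * w) := by rw [h11]
      _ = y * x⁻¹ * x * w := by group
  -- conclusion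
  have hcop : Nat.Coprime (Nat.card P₀) P₀.index := by
    have h3 : P₀.index = (S : Subgroup X).index := Subgroup.index_comap_of_surjective _ hσ
    have h4 : ¬ 2 ∣ (S : Subgroup X).index := S.not_dvd_index'
      (by exact Subgroup.index_ne_zero_of_finite)
    have h5 : IsPGroup 2 P₀ := by
      have h6 : Nat.card P₀ * P₀.index = Nat.card L := P₀.card_mul_index
      have h7 : Nat.card (S : Subgroup X) * (S : Subgroup X).index = Nat.card X := (S : Subgroup X).card_mul_index
      have h8 : Nat.card L = 2 * Nat.card X := by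
        rw [← hk2, ← Subgroup.card_mul_index σ.ker, Subgroup.index_ker, MonoidHom.range_eq_top.2 hσ,
          Subgroup.card_top]
      have h9 : Nat.card P₀ = 16 := by
        rw [h8, ← h7, hS8, h3] at h6
        have h10 : 0 < (S : Subgroup X).index := Nat.pos_of_ne_zero Subgroup.index_ne_zero_of_finite
        have h11 : Nat.card P₀ * (S : Subgroup X).index = 16 * (S : Subgroup X).index := by
          rw [h6]; ring
        exact Nat.eq_of_mul_eq_mul_right h10 h11
      exact IsPGroup.of_card (n := 4) (by rw [h9]; norm_num)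
    obtain ⟨n, hn⟩ := IsPGroup.iff_card.1 h5
    rw [hn, h3]
    exact Nat.Coprime.pow_left n ((Nat.Prime.coprime_iff_not_dvd Nat.prime_two).2 h4)
  have hfin := Cfsg.Agent.S0088.result P₀ ⟨⟨fun x y => Subtype.ext (hab x x.2 y y.2)⟩⟩ hcop
  apply hz1
  have : z ∈ P₀ ⊓ commutator L ⊓ Subgroup.center L := by
    refine ⟨⟨hkP z hσz, ?_⟩, hc (MonoidHom.mem_ker.2 hσz)⟩
    rw [hL]; exact Subgroup.mem_top z
  rwa [hfin, Subgroup.mem_bot] at this

/-- A perfect central extension of `X` by a 2-group is trivial when the Sylow 2-subgroups `S` of `X` are elementary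
abelian of order 8 and `N(S)` is transitive on `S ∖ {1}`. -/
theorem ker_eq_bot {L : Type*} {X : Type*} [Group L] [Finite L] [Group X] [Finite X] (σ : L →* X)
    (hσ : Function.Surjective σ) (hc : σ.ker ≤ Subgroup.center L) (hk2 : IsPGroup 2 σ.ker)
    (hL : commutator L = ⊤) (S : Sylow 2 X) (hS8 : Nat.card (S : Subgroup X) = 8)
    (hS2 : ∀ x ∈ (S : Subgroup X), x * x = 1)
    (htr : ∀ x ∈ (S : Subgroup X), ∀ y ∈ (S : Subgroup X), x ≠ 1 → y ≠ 1 →
      ∃ n ∈ Subgroup.normalizer ((S : Subgroup X) : Set X), n * x * n⁻¹ = y) : σ.ker = ⊥ := by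
  classical
  have h2 : Fact (Nat.Prime 2) := ⟨Nat.prime_two⟩
  by_contra hne
  obtain ⟨k, hk⟩ := IsPGroup.iff_card.1 hk2
  have hk0 : k ≠ 0 := by
    rintro rfl
    rw [pow_zero] at hk
    exact hne (Subgroup.card_eq_one.1 hk)
  obtain ⟨m, rfl⟩ : ∃ m, k = m + 1 := ⟨k - 1, by omega⟩
  obtain ⟨K', hK'⟩ := Sylow.exists_subgroup_card_pow_prime (G := σ.ker) 2 (n := m)
    (by rw [hk]; exact pow_dvd_pow 2 (Nat.le_succ m))
  let M : Subgroup L := K'.map σ.ker.subtype
  have hMk : M ≤ σ.ker := Subgroup.map_subtype_le _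
  have hMcard : Nat.card M = 2 ^ m := by
    rw [← hK']
    exact (Nat.card_congr (K'.equivMapOfInjective _ σ.ker.subtype_injective).toEquiv).symm
  have hMn : M.Normal := by
    refine ⟨fun x hx g => ?_⟩
    have h3 := Subgroup.mem_center_iff.1 (hc (hMk hx)) g
    rw [h3, mul_inv_cancel_right]
    exact hx
  let σ' : L ⧸ M →* X := QuotientGroup.lift M σ (fun x hx => MonoidHom.mem_ker.1 (hMk hx))
  have hσ'mk : ∀ x : L, σ' (x : L ⧸ M) = σ x := fun x => rfl
  have hσ' : Function.Surjective σ' := by
    intro x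
    obtain ⟨l, rfl⟩ := hσ x
    exact ⟨(l : L ⧸ M), rfl⟩
  refine core σ' hσ' ?_ ?_ ?_ S hS8 hS2 htr
  · intro x hx
    induction x using QuotientGroup.induction_on with
    | H l =>
      rw [MonoidHom.mem_ker, hσ'mk] at hx
      rw [Subgroup.mem_center_iff]
      intro y
      induction y using QuotientGroup.induction_on with
      | H y =>
        have h3 := Subgroup.mem_center_iff.1 (hc (MonoidHom.mem_ker.2 hx)) y
        change ((y * l : L) : L ⧸ M) = ((l * y : L) : L ⧸ M)
        rw [h3]
  · have h3 : Nat.card σ'.ker * Nat.card X = Nat.card (L ⧸ M) := by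
      rw [← Subgroup.card_mul_index σ'.ker, Subgroup.index_ker, MonoidHom.range_eq_top.2 hσ',
        Subgroup.card_top]
    have h4 : Nat.card σ.ker * Nat.card X = Nat.card L := by
      rw [← Subgroup.card_mul_index σ.ker, Subgroup.index_ker, MonoidHom.range_eq_top.2 hσ,
        Subgroup.card_top]
    have h5 : Nat.card (L ⧸ M) * Nat.card M = Nat.card L :=
      (Subgroup.card_eq_card_quotient_mul_card_subgroup M).symm
    have hX : 0 < Nat.card X := Nat.card_pos
    have h6 : (0 : ℕ) < 2 ^ m := by positivity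
    rw [← h3, hMcard, ← h4, hk] at h5
    have h7 : Nat.card σ'.ker * (Nat.card X * 2 ^ m) = 2 * (Nat.card X * 2 ^ m) := by
      calc Nat.card σ'.ker * (Nat.card X * 2 ^ m) = Nat.card σ'.ker * Nat.card X * 2 ^ m := by ring
        _ = 2 ^ (m + 1) * Nat.card X := h5
        _ = 2 * (Nat.card X * 2 ^ m) := by ring
    exact Nat.eq_of_mul_eq_mul_right (by positivity) h7
  · have h3 : (commutator L).map (QuotientGroup.mk' M) = commutator (L ⧸ M) := by
      rw [commutator_def, Subgroup.map_commutator, ← MonoidHom.range_eq_map,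
        MonoidHom.range_eq_top.2 (QuotientGroup.mk'_surjective M), commutator_def]
    rw [← h3, hL, ← MonoidHom.range_eq_map, MonoidHom.range_eq_top.2 (QuotientGroup.mk'_surjective M)]

end Cfsg.Agent.H310.CoverEight
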