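import Mathlib
import Cfsg.Agent.TwoFusion.DihedralFusion
import Cfsg.Agent.TwoFusion.CoreReduction
import Cfsg.Agent.HKS.RigFour

/-!
# Groups with a fused Sylow 2-subgroup of order 4: numerical invariants
-/

set_option autoImplicit false

namespace Cfsg.Agent.H310.VSyl

open MulAction Subgroup Cfsg.Agent.TwoFusion.DihedralFusion

/-- the conjugation action -/
def Cj (K : Type*) : Type _ := K

section Cj

variable {K : Type*} [Group K]

/-- conjugation -/
def cjm (g x : K) : K := g * x * g⁻¹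

/-- the element as a point of the conjugation action -/
def toCj (x : K) : Cj K := x

instance instActCj : MulAction K (Cj K) where
  smul g x := toCj (cjm g x)
  one_smul := by
    intro x
    have h : ∀ x : K, cjm 1 x = x := fun x => by unfold cjm; group
    exact h x
  mul_smul := by
    intro g h x
    have : ∀ x : K, cjm (g * h) x = cjm g (cjm h x) := fun x => by unfold cjm; group
    exact this x

theorem smul_def (g : K) (x : K) : g • toCj x = toCj (g * x * g⁻¹) := rfl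

theorem toCj_inj {x y : K} : toCj x = toCj y ↔ x = y := Iff.rfl

theorem mem_stab {g x : K} : g ∈ stabilizer K (toCj x) ↔ g * x = x * g :=
  (mul_inv_eq_iff_eq_mul : g * x * g⁻¹ = x ↔ _)

end Cj

section orbit

variable {K : Type*} [Group K] {N : Type*} [MulAction K N]

theorem card_orbit (Y : Subgroup K) (X : Set N) (n : N) (h : MulAction.orbit Y n = X) :
    Nat.card Y = X.ncard * Nat.card ↥(Y ⊓ stabilizer K n) := by
  have h1 := (stabilizer Y n).index_mul_card
  rw [index_stabilizer, h] at h1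
  have h2 : Nat.card (stabilizer Y n) = Nat.card ↥(Y ⊓ stabilizer K n) := by
    have h3 : (stabilizer Y n).map Y.subtype = Y ⊓ stabilizer K n := by
      ext x
      constructor
      · rintro ⟨y, hy, rfl⟩
        exact ⟨y.2, hy⟩
      · rintro ⟨hx, hx'⟩
        exact ⟨⟨x, hx⟩, hx', rfl⟩
    rw [← h3]
    exact Nat.card_congr ((stabilizer Y n).equivMapOfInjective _ Y.subtype_injective).toEquiv
  rw [← h1, h2]

/-- a normal subgroup that is transitive on an orbit -/
theorem card_normal [Finite K] (L : Subgroup K) (n : N) (h : ∀ g : K, ∃ l ∈ L, l • n = g • n) :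
    Nat.card (stabilizer K n) = L.index * Nat.card ↥(L ⊓ stabilizer K n) := by
  have h1 := card_orbit (⊤ : Subgroup K) (orbit K n) n (by
    ext x
    constructor
    · rintro ⟨⟨g, -⟩, rfl⟩
      exact ⟨g, rfl⟩
    · rintro ⟨g, rfl⟩
      exact ⟨⟨g, mem_top g⟩, rfl⟩)
  have h2 := card_orbit L (orbit K n) n (by
    ext x
    constructor
    · rintro ⟨⟨g, -⟩, rfl⟩
      exact ⟨g, rfl⟩
    · rintro ⟨g, rfl⟩
      obtain ⟨l, hl, h3⟩ := h g
      exact ⟨⟨l, hl⟩, h3⟩)
  rw [top_inf_eq] at h1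
  have h3 := L.card_mul_index
  have h4 : Nat.card (⊤ : Subgroup K) = Nat.card K :=
    Nat.card_congr (Subgroup.topEquiv : (⊤ : Subgroup K) ≃* K).toEquiv
  rw [h4, ← h3, h2] at h1
  have h5 : 0 < (orbit K n).ncard := by
    by_contra h6
    have h7 : (orbit K n).ncard = 0 := by omega
    rw [h7, zero_mul] at h2
    exact Nat.card_pos.ne' h2
  have h6 : (orbit K n).ncard * Nat.card (stabilizer K n) =
      (orbit K n).ncard * (L.index * Nat.card ↥(L ⊓ stabilizer K n)) := by
    rw [← h1]; ring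
  exact Nat.eq_of_mul_eq_mul_left h5 h6

end orbit

/-- `t, s` generate a Sylow 2-subgroup of order 4, and their three involutions are conjugate -/
structure VS {K : Type*} [Group K] (t s : K) : Prop where
  t1 : t ≠ 1
  tt : t * t = 1
  s1 : s ≠ 1
  ss : s * s = 1
  ne : t ≠ s
  comm : t * s = s * t
  h8 : ¬ 8 ∣ Nat.card K
  c1 : ∃ g : K, g * t * g⁻¹ = s
  c2 : ∃ g : K, g * t * g⁻¹ = t * s

/-- the same without fusion -/
structure VS0 {K : Type*} [Group K] (t s : K) : Prop where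
  t1 : t ≠ 1
  tt : t * t = 1
  s1 : s ≠ 1
  ss : s * s = 1
  ne : t ≠ s
  comm : t * s = s * t
  h8 : ¬ 8 ∣ Nat.card K

namespace VS0

variable {K : Type*} [Group K] [Finite K] {t s : K} (H : VS0 t s)

theorem isPGroup_card {T : Subgroup K} (hT : IsPGroup 2 T) (h8 : ¬ 8 ∣ Nat.card K) : Nat.card T ≤ 4 := by
  have : Fact (Nat.Prime 2) := ⟨Nat.prime_two⟩
  obtain ⟨k, hk⟩ := IsPGroup.iff_card.1 hT
  have h1 : k ≤ 2 := by
    by_contra h2
    push Not at h2
    apply h8
    have h3 : 2 ^ 3 ∣ Nat.card T := by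
      rw [hk]
      exact pow_dvd_pow 2 h2
    exact h3.trans (card_subgroup_dvd_card T)
  rw [hk]
  calc 2 ^ k ≤ 2 ^ 2 := Nat.pow_le_pow_right (by norm_num) h1
    _ = 4 := rfl

include H

/-- a 2-element normalizing `V` lies in `V` -/
theorem mem_of_normalizes {h : K} {k : ℕ} (hk : h ^ 2 ^ k = 1)
    (hn : h ∈ normalizer ((fourGroup t s H.tt H.ss H.comm : Subgroup K) : Set K)) :
    h ∈ fourGroup t s H.tt H.ss H.comm := by
  have : Fact (Nat.Prime 2) := ⟨Nat.prime_two⟩
  set V := fourGroup t s H.tt H.ss H.comm with hV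
  have hV4 : Nat.card V = 4 := (isKleinFour_fourGroup H.tt H.ss H.comm H.t1 H.s1 H.ne).card_four
  have hVp : IsPGroup 2 V := IsPGroup.of_card (n := 2) hV4
  have hZ : IsPGroup 2 (zpowers h) := by
    intro x
    obtain ⟨x, hx⟩ := x
    obtain ⟨j, rfl⟩ := mem_zpowers_iff.1 hx
    refine ⟨k, Subtype.ext ?_⟩
    change (h ^ j) ^ 2 ^ k = 1
    rw [← zpow_natCast, ← zpow_mul, mul_comm, zpow_mul, zpow_natCast, hk, one_zpow]
  have h1 : IsPGroup 2 (zpowers h ⊔ V : Subgroup K) :=
    IsPGroup.to_sup_of_normal_right' hZ hVp ((zpowers_le).2 hn)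
  have h2 := isPGroup_card h1 H.h8
  have h3 : V = zpowers h ⊔ V := Subgroup.eq_of_le_of_card_ge le_sup_right (by rw [hV4]; exact h2)
  rw [h3]
  exact (le_sup_left : zpowers h ≤ _) (mem_zpowers h)

/-- `N(V) ∩ C(t) = C(V)` -/
theorem fix {g : K} (h1 : g * t * g⁻¹ = t) (h2 : g * s * g⁻¹ = s ∨ g * s * g⁻¹ = t * s) : g * s * g⁻¹ = s := by
  rcases h2 with h2 | h2
  · exact h2
  exfalso
  have htsne : t * s ≠ s := fun h => H.t1 (mul_eq_right.1 h)
  have hts : g * (t * s) * g⁻¹ = s := by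
    calc g * (t * s) * g⁻¹ = (g * t * g⁻¹) * (g * s * g⁻¹) := by group
      _ = (t * t) * s := by rw [h1, h2, mul_assoc]
      _ = s := by rw [H.tt, one_mul]
  have hg2 : g ^ 2 * s * (g ^ 2)⁻¹ = s := by
    calc g ^ 2 * s * (g ^ 2)⁻¹ = g * (g * s * g⁻¹) * g⁻¹ := by rw [pow_two]; group
      _ = s := by rw [h2, hts]
  have hev : ∀ j : ℕ, (g ^ 2) ^ j * s * ((g ^ 2) ^ j)⁻¹ = s := by
    intro j
    induction j with
    | zero => simp
    | succ j ih =>
      calc (g ^ 2) ^ (j + 1) * s * ((g ^ 2) ^ (j + 1))⁻¹ = (g ^ 2) ^ j * (g ^ 2 * s * (g ^ 2)⁻¹) * ((g ^ 2) ^ j)⁻¹ := by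
            rw [pow_succ]; group
        _ = s := by rw [hg2, ih]
  -- odd powers of `g` interchange `s` and `t s`
  obtain ⟨k, m, hm, hkm⟩ := Nat.exists_eq_two_pow_mul_odd (orderOf_pos g).ne'
  obtain ⟨j, hj⟩ := hm
  have hgm : g ^ m * s * (g ^ m)⁻¹ = t * s := by
    rw [hj, pow_succ', pow_mul]
    calc g * (g ^ 2) ^ j * s * (g * (g ^ 2) ^ j)⁻¹ = g * ((g ^ 2) ^ j * s * ((g ^ 2) ^ j)⁻¹) * g⁻¹ := by group
      _ = t * s := by rw [hev, h2]
  have hgmt : g ^ m * t * (g ^ m)⁻¹ = t := by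
    have h3 : Commute g t := mul_inv_eq_iff_eq_mul.1 h1
    have h4 : Commute (g ^ m) t := h3.pow_left m
    exact mul_inv_eq_iff_eq_mul.2 h4
  have hgmts : g ^ m * (t * s) * (g ^ m)⁻¹ = s := by
    calc g ^ m * (t * s) * (g ^ m)⁻¹ = (g ^ m * t * (g ^ m)⁻¹) * (g ^ m * s * (g ^ m)⁻¹) := by group
      _ = (t * t) * s := by rw [hgmt, hgm, mul_assoc]
      _ = s := by rw [H.tt, one_mul]
  have hn : g ^ m ∈ normalizer ((fourGroup t s H.tt H.ss H.comm : Subgroup K) : Set K) := by
    refine Subgroup.mem_normalizer_fintype fun x hx => ?_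
    rcases hx with rfl | rfl | rfl | rfl
    · simp [one_mem]
    · rw [hgmt]; exact left_mem_fourGroup _ _ _
    · rw [hgm]; exact Or.inr (Or.inr (Or.inr rfl))
    · rw [hgmts]; exact right_mem_fourGroup _ _ _
  have h5 := H.mem_of_normalizes (k := k) (by rw [← pow_mul, mul_comm, ← hkm, pow_orderOf_eq_one]) hn
  have h6 : Commute (g ^ m) s := by
    rcases h5 with h5 | h5 | h5 | h5
    · rw [h5]; exact Commute.one_left s
    · rw [h5]; exact H.comm
    · rw [h5]
    · rw [h5]; exact Commute.mul_left H.comm (Commute.refl s)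
  rw [h6.eq, mul_inv_cancel_right] at hgm
  exact htsne hgm.symm

end VS0

end Cfsg.Agent.H310.VSyl
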