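import Cfsg.Agent.H310.VSyl
import Cfsg.Agent.Classification.DihStructure
import Cfsg.Agent.Lib.PSL2Torus
import Cfsg.Agent.ClassicalGeometry.PSL2Basic
import Cfsg.Agent.Lib.Cores

/-!
# Groups with a fused Sylow 2-subgroup of order 4: the quotient by the odd core
-/

set_option autoImplicit false

namespace Cfsg.Agent.H310.VSyl

open MulAction Subgroup Cfsg.Agent.TwoFusion.DihedralFusion

theorem card_map_ker {K X : Type*} [Group K] [Finite K] [Group X] (f : K →* X) (A : Subgroup K) :
    Nat.card A = Nat.card ↥(A ⊓ f.ker) * Nat.card (A.map f) := by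
  have h1 := (f.comp A.subtype).ker.card_mul_index
  rw [index_ker] at h1
  have h2 : (f.comp A.subtype).range = A.map f := by
    rw [MonoidHom.range_eq_map, ← Subgroup.map_map, ← MonoidHom.range_eq_map, range_subtype]
  have h3 : ((f.comp A.subtype).ker).map A.subtype = A ⊓ f.ker := by
    ext x
    constructor
    · rintro ⟨y, hy, rfl⟩
      exact ⟨y.2, hy⟩
    · rintro ⟨hx, hx'⟩
      exact ⟨⟨x, hx⟩, hx', rfl⟩
  rw [← h1, h2, ← h3]
  congr 1
  exact Nat.card_congr ((f.comp A.subtype).ker.equivMapOfInjective _ A.subtype_injective).toEquiv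

theorem centralizer_zpowers_eq {K : Type*} [Group K] (t : K) :
    centralizer ((zpowers t : Subgroup K) : Set K) = centralizer {t} := by
  ext g
  rw [mem_centralizer_iff, mem_centralizer_singleton_iff]
  constructor
  · intro h
    exact (h t (mem_zpowers t)).symm
  · intro h x hx
    obtain ⟨j, rfl⟩ := mem_zpowers_iff.1 hx
    have : Commute g t := h
    exact (this.zpow_right j).eq.symm

theorem mem_centralizer_pair {K : Type*} [Group K] {t s g : K} :
    g ∈ centralizer ({t, s} : Set K) ↔ g * t = t * g ∧ g * s = s * g := by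
  rw [mem_centralizer_iff]
  constructor
  · intro h
    exact ⟨(h t (by simp)).symm, (h s (by simp)).symm⟩
  · rintro ⟨h1, h2⟩ x (rfl | rfl)
    · exact h1.symm
    · exact h2.symm

theorem centralizer_four_eq {K : Type*} [Group K] {t s : K} (tt : t * t = 1) (ss : s * s = 1) (c : t * s = s * t) :
    centralizer ((fourGroup t s tt ss c : Subgroup K) : Set K) = centralizer {t, s} := by
  ext g
  rw [mem_centralizer_pair, mem_centralizer_iff]
  constructor
  · intro h
    exact ⟨(h t (left_mem_fourGroup _ _ _)).symm, (h s (right_mem_fourGroup _ _ _)).symm⟩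
  · rintro ⟨h1, h2⟩ x (rfl | rfl | rfl | rfl)
    · rw [one_mul, mul_one]
    · exact h1.symm
    · exact h2.symm
    · rw [mul_assoc, ← h2, ← mul_assoc, ← h1, mul_assoc]

/-- the numerical conclusion -/
def Eqn (k a b : ℕ) : Prop :=
  ∃ u : ℕ, 0 < u ∧ (k * b ^ 2 * u ^ 2 = (8 * u ^ 2 + 6 * u + 1) * a ^ 3 ∨
    k * b ^ 2 * u ^ 2 + 6 * u * a ^ 3 = (8 * u ^ 2 + 1) * a ^ 3)

theorem Eqn.scale {k a b o x y : ℕ} (h : Eqn k a b) (ho : o * y ^ 2 = x ^ 3) : Eqn (o * k) (x * a) (y * b) := by
  obtain ⟨u, hu, h⟩ := h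
  refine ⟨u, hu, ?_⟩
  have e1 : o * k * (y * b) ^ 2 * u ^ 2 = (o * y ^ 2) * (k * b ^ 2 * u ^ 2) := by ring
  rw [e1, ho]
  rcases h with h | h
  · left
    rw [h]; ring
  · right
    calc x ^ 3 * (k * b ^ 2 * u ^ 2) + 6 * u * (x * a) ^ 3 = x ^ 3 * (k * b ^ 2 * u ^ 2 + 6 * u * a ^ 3) := by ring
      _ = _ := by rw [h]; ring

theorem VS.toVS0 {K : Type*} [Group K] {t s : K} (H : VS t s) : VS0 t s :=
  ⟨H.t1, H.tt, H.s1, H.ss, H.ne, H.comm, H.h8⟩

section quotient

variable {K X : Type*} [Group K] [Finite K] [Group X] [Finite X] {t s : K} (H : VS t s)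
  (f : K →* X) (hf : Function.Surjective f) (hodd : Odd (Nat.card f.ker))

include H hf hodd

omit hf in
theorem VS.not_ker {x : K} (hx : x ≠ 1) (hxx : x * x = 1) : f x ≠ 1 := by
  intro h
  have h1 : orderOf (⟨x, h⟩ : f.ker) = 2 := orderOf_eq_prime (Subtype.ext (by rw [pow_two]; exact hxx))
    (fun h => hx (congrArg Subtype.val h))
  have h2 : 2 ∣ Nat.card f.ker := h1 ▸ orderOf_dvd_natCard _
  exact (Nat.not_even_iff_odd.2 hodd) (even_iff_two_dvd.2 h2)

theorem VS.quot : VS (f t) (f s) := by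
  refine ⟨H.not_ker f hodd H.t1 H.tt, ?_, H.not_ker f hodd H.s1 H.ss, ?_, ?_, ?_, ?_, ?_, ?_⟩
  · rw [← map_mul, H.tt, map_one]
  · rw [← map_mul, H.ss, map_one]
  · intro h
    refine H.not_ker f hodd (x := t * s) ?_ ?_ ?_
    · intro h1
      apply H.ne
      have h5 : t * (t * s) = t * 1 := by rw [h1]
      rw [← mul_assoc, H.tt, one_mul, mul_one] at h5
      exact h5.symm
    · calc t * s * (t * s) = t * (s * t) * s := by group
        _ = (t * t) * (s * s) := by rw [← H.comm]; group
        _ = 1 := by rw [H.tt, H.ss, one_mul]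
    · rw [map_mul, h, ← map_mul, H.ss, map_one]
  · rw [← map_mul, ← map_mul, H.comm]
  · intro h
    refine H.h8 (h.trans ?_)
    have h1 := f.ker.card_mul_index
    rw [index_ker, MonoidHom.range_eq_top.2 hf, Nat.card_congr (Subgroup.topEquiv : (⊤ : Subgroup X) ≃* X).toEquiv] at h1
    exact Dvd.intro_left _ h1
  · obtain ⟨g, hg⟩ := H.c1
    exact ⟨f g, by rw [← map_mul, ← map_inv, ← map_mul, hg]⟩
  · obtain ⟨g, hg⟩ := H.c2
    exact ⟨f g, by rw [← map_mul, ← map_inv, ← map_mul, hg, map_mul]⟩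

theorem VS.quot_eqn (h : Eqn (Nat.card X) (Nat.card (centralizer ({f t} : Set X)))
    (Nat.card (centralizer ({f t, f s} : Set X)))) :
    Eqn (Nat.card K) (Nat.card (centralizer ({t} : Set K))) (Nat.card (centralizer ({t, s} : Set K))) := by
  have : Fact (Nat.Prime 2) := ⟨Nat.prime_two⟩
  have hK : Nat.card K = Nat.card f.ker * Nat.card X := by
    have h1 := f.ker.card_mul_index
    rw [index_ker, MonoidHom.range_eq_top.2 hf, Nat.card_congr (Subgroup.topEquiv : (⊤ : Subgroup X) ≃* X).toEquiv] at h1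
    exact h1.symm
  have hsq : ∀ x : K, x * x = 1 → IsPGroup 2 (zpowers x) := by
    intro x hx
    rintro ⟨y, hy⟩
    obtain ⟨j, rfl⟩ := mem_zpowers_iff.1 hy
    refine ⟨1, Subtype.ext ?_⟩
    change (x ^ j) ^ 2 ^ 1 = 1
    rw [pow_one, ← zpow_natCast, ← zpow_mul, mul_comm, zpow_mul, zpow_natCast, pow_two, hx, one_zpow]
  have hC1 : Nat.card (centralizer ({t} : Set K)) =
      Nat.card ↥(centralizer ({t} : Set K) ⊓ f.ker) * Nat.card (centralizer ({f t} : Set X)) := by
    rw [card_map_ker f (centralizer {t})]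
    congr 2
    have h1 := Cfsg.Agent.TwoFusion.CoreReduction.centralizer_map_of_odd hf hodd (zpowers t) (hsq t H.tt)
    rw [MonoidHom.map_zpowers, centralizer_zpowers_eq, centralizer_zpowers_eq] at h1
    rw [h1]
  have hVp : IsPGroup 2 (fourGroup t s H.tt H.ss H.comm) :=
    IsPGroup.of_card (n := 2) (isKleinFour_fourGroup H.tt H.ss H.comm H.t1 H.s1 H.ne).card_four
  have hmap : (fourGroup t s H.tt H.ss H.comm).map f =
      fourGroup (f t) (f s) (by rw [← map_mul, H.tt, map_one]) (by rw [← map_mul, H.ss, map_one])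
        (by rw [← map_mul, ← map_mul, H.comm]) := by
    ext x
    rw [mem_fourGroup]
    constructor
    · rintro ⟨y, (rfl | rfl | rfl | rfl), rfl⟩
      · left; rw [map_one]
      · right; left; rfl
      · right; right; left; rfl
      · right; right; right; rw [map_mul]
    · rintro (rfl | rfl | rfl | rfl)
      · exact one_mem _
      · exact ⟨t, left_mem_fourGroup _ _ _, rfl⟩
      · exact ⟨s, right_mem_fourGroup _ _ _, rfl⟩
      · exact ⟨t * s, Or.inr (Or.inr (Or.inr rfl)), map_mul f t s⟩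
  have hC2 : Nat.card (centralizer ({t, s} : Set K)) =
      Nat.card ↥(centralizer ({t, s} : Set K) ⊓ f.ker) * Nat.card (centralizer ({f t, f s} : Set X)) := by
    rw [card_map_ker f (centralizer {t, s})]
    congr 2
    have h1 := Cfsg.Agent.TwoFusion.CoreReduction.centralizer_map_of_odd hf hodd _ hVp
    rw [hmap, centralizer_four_eq, centralizer_four_eq] at h1
    rw [h1]
  rw [hK, hC1, hC2]
  refine h.scale ?_
  -- the formula for the kernel
  have h4 := Cfsg.Agent.HKS.Rig.card_four (P := f.ker) hodd (α := MulAut.conjNormal t)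
    (β := MulAut.conjNormal s) (by rw [← map_mul, H.tt, map_one])
    (by rw [← map_mul, H.ss, map_one]) (by rw [← map_mul, ← map_mul, H.comm])
  rw [← map_mul] at h4
  have e1 : ∀ x : K, Nat.card {y : f.ker // (MulAut.conjNormal x : MulAut f.ker) y = y} =
      Nat.card ↥(centralizer ({x} : Set K) ⊓ f.ker) := by
    intro x
    refine Nat.card_congr
      { toFun := fun y => ⟨y.1.1, ?_, y.1.2⟩
        invFun := fun y => ⟨⟨y.1, y.2.2⟩, ?_⟩
        left_inv := fun y => rfl
        right_inv := fun y => rfl }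
    · have h5 := congrArg Subtype.val y.2
      rw [MulAut.conjNormal_apply] at h5
      exact mem_centralizer_singleton_iff.2 (mul_inv_eq_iff_eq_mul.1 h5).symm
    · apply Subtype.ext
      rw [MulAut.conjNormal_apply]
      exact mul_inv_eq_iff_eq_mul.2 (mem_centralizer_singleton_iff.1 y.2.1).symm
  have e2 : Nat.card {y : f.ker // (MulAut.conjNormal t : MulAut f.ker) y = y ∧
      (MulAut.conjNormal s : MulAut f.ker) y = y} =
      Nat.card ↥(centralizer ({t, s} : Set K) ⊓ f.ker) := by
    refine Nat.card_congr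
      { toFun := fun y => ⟨y.1.1, ?_, y.1.2⟩
        invFun := fun y => ⟨⟨y.1, y.2.2⟩, ?_⟩
        left_inv := fun y => rfl
        right_inv := fun y => rfl }
    · have h5 := congrArg Subtype.val y.2.1
      have h6 := congrArg Subtype.val y.2.2
      rw [MulAut.conjNormal_apply] at h5 h6
      exact mem_centralizer_pair.2 ⟨(mul_inv_eq_iff_eq_mul.1 h5).symm, (mul_inv_eq_iff_eq_mul.1 h6).symm⟩
    · have h7 := mem_centralizer_pair.1 y.2.1
      constructor
      · apply Subtype.ext
        rw [MulAut.conjNormal_apply]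
        exact mul_inv_eq_iff_eq_mul.2 h7.1.symm
      · apply Subtype.ext
        rw [MulAut.conjNormal_apply]
        exact mul_inv_eq_iff_eq_mul.2 h7.2.symm
  have e3 : ∀ x g : K, Nat.card ↥(centralizer ({g * x * g⁻¹} : Set K) ⊓ f.ker) =
      Nat.card ↥(centralizer ({x} : Set K) ⊓ f.ker) := by
    intro x g
    symm
    refine Nat.card_congr
      { toFun := fun y => ⟨g * y.1 * g⁻¹, ?_, ?_⟩
        invFun := fun y => ⟨g⁻¹ * y.1 * g, ?_, ?_⟩
        left_inv := fun y => Subtype.ext (by group)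
        right_inv := fun y => Subtype.ext (by group) }
    · have h5 : y.1 * x = x * y.1 := mem_centralizer_singleton_iff.1 y.2.1
      refine mem_centralizer_singleton_iff.2 ?_
      calc g * y.1 * g⁻¹ * (g * x * g⁻¹) = g * (y.1 * x) * g⁻¹ := by group
        _ = g * x * g⁻¹ * (g * y.1 * g⁻¹) := by rw [h5]; group
    · exact (inferInstance : f.ker.Normal).conj_mem _ y.2.2 g
    · have h5 : y.1 * (g * x * g⁻¹) = (g * x * g⁻¹) * y.1 := mem_centralizer_singleton_iff.1 y.2.1
      refine mem_centralizer_singleton_iff.2 ?_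
      calc g⁻¹ * y.1 * g * x = g⁻¹ * (y.1 * (g * x * g⁻¹)) * g := by group
        _ = x * (g⁻¹ * y.1 * g) := by rw [h5]; group
    · exact (inferInstance : f.ker.Normal).conj_mem' _ y.2.2 g
  rw [e1, e1, e1, e2] at h4
  obtain ⟨g1, hg1⟩ := H.c1
  obtain ⟨g2, hg2⟩ := H.c2
  rw [← hg2, e3, ← hg1, e3] at h4
  rw [hg1] at h4
  rw [h4]
  ring

end quotient

end Cfsg.Agent.H310.VSyl
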